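import Cfsg.Agent.H967.Sph.Oper
import Cfsg.Agent.H985.VZ.Defs
import Cfsg.Agent.H705.Dl.PsRgd
import Cfsg.Agent.Mrg.ParSys.Core

/-!
# S4842: an explicit module of the Hecke algebra gives an irreducible representation (helper589)

`N i` are operators on a finite dimensional space `E` which satisfy the quadratic relations
`q (N i)² = (q - 1) N i + 1` (`N i = q⁻¹ T_i`) and the braid relations, without common invariant subspace. The space
`Fs` of the functions `f : Y → E` with `f (g b) = f g` for `b ∈ B` and `∑ x ∈ X_i, f (g x n_i) = q N_i (f g)` is an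
irreducible representation of `Y`, evaluation at `1` is an isomorphism from the `B`-invariants onto `E`, and the
`P_K`-invariants correspond to the vectors `v` with `N i v = v` for all `i ∈ K`.
-/

set_option autoImplicit false
set_option linter.unusedSectionVars false

open Cfsg

namespace Cfsg.Agent.H589.FF

open CoxeterSystem Cfsg.Agent.ChevalleyStructure.CoxeterGeom Cfsg.Agent.Tits.Roots Cfsg.Agent.Tits.Core
  Cfsg.Agent.Tits.Exchange Cfsg.Agent.Nodes.Reps Cfsg.Agent.Nodes.BNOf Cfsg.Agent.Nodes.Bruhat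
  Cfsg.Agent.Nodes.LeviDec Cfsg.Agent.H967.Sph Cfsg.Agent.H985.VZ Module

/-- The normalised operators of a module of the Hecke algebra. -/
structure HMod {I : Type*} (M : CoxeterMatrix I) (q : I → ℕ) {E : Type*} [AddCommGroup E] [Module ℂ E]
    (N : I → Module.End ℂ E) : Prop where
  quad : ∀ i v, (q i : ℂ) • N i (N i v) = ((q i : ℂ) - 1) • N i v + v
  braid : ∀ i j, i ≠ j → M i j ≠ 0 →
    ((Cfsg.Agent.ParSys.alt i j (M i j)).map N).prod = ((Cfsg.Agent.ParSys.alt j i (M i j)).map N).prod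

section Word

variable {I W : Type*} [Group W] {M : CoxeterMatrix I} (cs : CoxeterSystem M W) {q : I → ℕ}
  {E : Type*} [AddCommGroup E] [Module ℂ E] (N : I → Module.End ℂ E)

/-- the operator of `w` -/
noncomputable def aw (w : W) : Module.End ℂ E := (((cs.exists_isReduced w).choose).map N).prod

variable {N}

theorem aw_eq [Finite I] (hN : HMod M q N) {ω : List I} (hω : cs.IsReduced ω) :
    aw cs N (cs.wordProd ω) = (ω.map N).prod :=
  Cfsg.Agent.ParSys.Words.matsumoto cs N hN.braid (cs.exists_isReduced (cs.wordProd ω)).choose_spec.1 hω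
    (cs.exists_isReduced (cs.wordProd ω)).choose_spec.2.symm

theorem aw_one [Finite I] (hN : HMod M q N) : aw cs N 1 = 1 := by
  have h1 := aw_eq cs hN (ω := []) (by show cs.length (cs.wordProd []) = 0; rw [cs.wordProd_nil, cs.length_one])
  rwa [cs.wordProd_nil] at h1

theorem aw_mul [Finite I] (hN : HMod M q N) {i : I} {w : W} (hw : cs.length w < cs.length (cs.simple i * w)) :
    aw cs N (cs.simple i * w) = N i * aw cs N w := by
  obtain ⟨ω, h1, rfl⟩ := cs.exists_isReduced w
  have h2 : cs.IsReduced (i :: ω) := by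
    have h3 := cs.length_simple_mul (cs.wordProd ω) i
    show cs.length (cs.wordProd (i :: ω)) = (i :: ω).length
    rw [cs.wordProd_cons, List.length_cons, ← h1.eq]
    omega
  rw [← cs.wordProd_cons, aw_eq cs hN h2, aw_eq cs hN h1, List.map_cons, List.prod_cons]

end Word

section Fun

variable {I W Y : Type*} [Fintype I] [DecidableEq I] [Group W] [Finite W] [Group Y] [Finite Y] {M : CoxeterMatrix I}
  {cs : CoxeterSystem M W} {A : I → I → ℤ} {h : IsCartan M A} {p : ℕ} {T : Subgroup Y} {n : I → Y}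
  {X : (I → ℤ) → Subgroup Y} {q : I → ℕ} {E : Type*} [AddCommGroup E] [Module ℂ E] {N : I → Module.End ℂ E}

/-- The space of the functions `f : Y → E` with `f (g b) = f g` and `∑ x ∈ X_i, f (g x n_i) = q N_i (f g)`. -/
def Fs (cs : CoxeterSystem M W) (h : IsCartan M A) (T : Subgroup Y) (n : I → Y) (X : (I → ℤ) → Subgroup Y)
    (q : I → ℕ) (N : I → Module.End ℂ E) : Submodule ℂ (Y → E) where
  carrier := {f | (∀ g, ∀ b ∈ RGD.B cs h T X, f (g * b) = f g) ∧
    ∀ i g, ∑ᶠ x : X (sr i), f (g * x * n i) = (q i : ℂ) • N i (f g)}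
  add_mem' := by
    rintro f f' ⟨h1, h2⟩ ⟨h3, h4⟩
    refine ⟨fun g b hb => ?_, fun i g => ?_⟩
    · rw [Pi.add_apply, Pi.add_apply, h1 g b hb, h3 g b hb]
    · rw [Pi.add_apply, map_add, smul_add, ← h2, ← h4]
      exact finsum_add_distrib (Set.toFinite _) (Set.toFinite _)
  zero_mem' := by
    refine ⟨fun g b hb => rfl, fun i g => ?_⟩
    simp
  smul_mem' := by
    rintro c f ⟨h1, h2⟩
    refine ⟨fun g b hb => ?_, fun i g => ?_⟩
    · rw [Pi.smul_apply, Pi.smul_apply, h1 g b hb]
    · rw [Pi.smul_apply, map_smul, smul_comm, ← h2, smul_finsum]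
      rfl

variable (cs h T n X q N) in
/-- The action on `Fs`. -/
def sig : Representation ℂ Y (Fs cs h T n X q N) where
  toFun y :=
    { toFun := fun f => ⟨fun g => (f : Y → E) (y⁻¹ * g), by
        obtain ⟨h1, h2⟩ := f.2
        refine ⟨fun g b hb => ?_, fun i g => ?_⟩
        · show (f : Y → E) (y⁻¹ * (g * b)) = (f : Y → E) (y⁻¹ * g)
          rw [← mul_assoc, h1 _ b hb]
        · refine Eq.trans (finsum_congr fun x => ?_) (h2 i (y⁻¹ * g))
          show (f : Y → E) (y⁻¹ * (g * x * n i)) = (f : Y → E) (y⁻¹ * g * x * n i)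
          rw [← mul_assoc, ← mul_assoc]⟩
      map_add' := fun _ _ => rfl
      map_smul' := fun _ _ => rfl }
  map_one' := by
    ext f g
    show (f : Y → E) ((1 : Y)⁻¹ * g) = (f : Y → E) g
    rw [inv_one, one_mul]
  map_mul' y z := by
    ext f g
    show (f : Y → E) ((y * z)⁻¹ * g) = (f : Y → E) (z⁻¹ * (y⁻¹ * g))
    rw [mul_inv_rev, mul_assoc]

theorem sig_apply (y : Y) (f : Fs cs h T n X q N) (g : Y) :
    ((sig cs h T n X q N y f : Fs cs h T n X q N) : Y → E) g = (f : Y → E) (y⁻¹ * g) := rfl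

variable (cs h T n X q N) in
/-- evaluation at `1` -/
def ev : Fs cs h T n X q N →ₗ[ℂ] E where
  toFun f := (f : Y → E) 1
  map_add' _ _ := rfl
  map_smul' _ _ := rfl

theorem ev_apply (f : Fs cs h T n X q N) : ev cs h T n X q N f = (f : Y → E) 1 := rfl

section R

variable (R : RGD cs h p T n X) (hG : GG cs h T X = ⊤) (hq : ∀ i, Nat.card (X (sr i)) = q i) (hN : HMod M q N)
include R hG hq hN

/-- the `B`-invariant function with value `v` at `1` -/
theorem exists_fun (v : E) : ∃ f : Fs cs h T n X q N, f ∈ fx (sig cs h T n X q N) (RGD.B cs h T X) ∧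
    (∀ w g, Cell R.nsys cs h X w g → (f : Y → E) g = aw cs N w⁻¹ v) := by
  classical
  have hcell : ∀ w g, Cell R.nsys cs h X w g → wOf R hG g = w := fun w g hg =>
    Cell.unique R (cell_wOf R hG g) hg
  refine ⟨⟨fun g => aw cs N (wOf R hG g)⁻¹ v, ?_, ?_⟩, ?_, ?_⟩
  · intro g b hb
    beta_reduce
    rw [hcell _ _ ((cell_wOf R hG g).mul_right hb)]
  · intro i g
    have := Fintype.ofFinite (X (sr i))
    have hcard : (Fintype.card (X (sr i)) : ℂ) = q i := by rw [← hq, Nat.card_eq_fintype_card]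
    obtain ⟨w, hw⟩ : ∃ w, w = wOf R hG g := ⟨_, rfl⟩
    have hg : Cell R.nsys cs h X w g := hw ▸ cell_wOf R hG g
    beta_reduce
    rw [← hw, finsum_eq_sum_of_fintype]
    have e1 : (w * cs.simple i)⁻¹ = cs.simple i * w⁻¹ := by rw [mul_inv_rev, cs.inv_simple]
    rcases nonneg_or_nonpos cs h w i with h0 | h0
    · have h1 : ∀ x : X (sr i), aw cs N (wOf R hG (g * x * n i))⁻¹ v = N i (aw cs N w⁻¹ v) := fun x => by
        rw [hcell _ _ (cell_pos R h0 hg x.2), e1, aw_mul cs hN, Module.End.mul_apply]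
        have h2 := (lt_iff' cs h w i).2 h0
        rw [← cs.length_inv w, ← cs.length_inv (w * cs.simple i), e1] at h2
        exact h2
      rw [Finset.sum_congr rfl fun x _ => h1 x, Finset.sum_const, Finset.card_univ, ← Nat.cast_smul_eq_nsmul ℂ, hcard]
    · obtain ⟨x₀, hx₀, h1, h2⟩ := cell_neg R h0 hg
      have h3 : aw cs N w⁻¹ v = N i (aw cs N (w * cs.simple i)⁻¹ v) := by
        have h4 : w⁻¹ = cs.simple i * (w * cs.simple i)⁻¹ := by
          rw [e1, simple_mul_simple_cancel_left]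
        conv_lhs => rw [h4]
        rw [aw_mul cs hN, Module.End.mul_apply]
        rw [← h4, cs.length_inv, cs.length_inv]
        rcases cs.length_mul_simple w i with h5 | h5
        · exfalso
          have h6 := (lt_iff' cs h w i).1 (by omega)
          have h7 : rep cs h w (sr i) = 0 := le_antisymm h0 h6
          have h8 : sr i = (0 : I → ℤ) := by
            have := congrArg (rep cs h w⁻¹) h7
            rwa [← rep_mul_apply, inv_mul_cancel, map_one, Module.End.one_apply, map_zero] at this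
          have h9 := congrFun h8 i
          rw [sr_self] at h9
          exact one_ne_zero h9
        · omega
      rw [← Finset.add_sum_erase _ _ (Finset.mem_univ (⟨x₀, hx₀⟩ : X (sr i)))]
      have h4 : ∀ x ∈ Finset.univ.erase (⟨x₀, hx₀⟩ : X (sr i)),
          aw cs N (wOf R hG (g * x * n i))⁻¹ v = aw cs N w⁻¹ v := fun x hx => by
        rw [hcell _ _ (h2 x x.2 fun h5 => Finset.ne_of_mem_erase hx (Subtype.ext h5))]
      rw [Finset.sum_congr rfl h4, Finset.sum_const, Finset.card_erase_of_mem (Finset.mem_univ _),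
        Finset.card_univ, ← Nat.cast_smul_eq_nsmul ℂ, Nat.cast_sub Fintype.card_pos, hcard, Nat.cast_one]
      show aw cs N (wOf R hG (g * x₀ * n i))⁻¹ v + _ = _
      rw [hcell _ _ h1, h3, hN.quad, add_comm]
  · intro b hb
    refine Subtype.ext (funext fun g => ?_)
    rw [sig_apply]
    show aw cs N (wOf R hG (b⁻¹ * g))⁻¹ v = aw cs N (wOf R hG g)⁻¹ v
    rw [hcell _ _ ((cell_wOf R hG g).mul_left (inv_mem hb))]
  · intro w g hg
    show aw cs N (wOf R hG g)⁻¹ v = _
    rw [hcell _ _ hg]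

omit hG hq hN in
/-- a function of `Fs` fixed by `B` is constant on the cells -/
theorem cell_const {f : Fs cs h T n X q N} (hf : f ∈ fx (sig cs h T n X q N) (RGD.B cs h T X)) {w : W} {g g' : Y}
    (hg : Cell R.nsys cs h X w g) (hg' : Cell R.nsys cs h X w g') : (f : Y → E) g = (f : Y → E) g' := by
  have key : ∀ {b₁ k b₂ : Y}, b₁ ∈ RGD.B cs h T X → b₂ ∈ RGD.B cs h T X →
      (f : Y → E) (b₁ * k * b₂) = (f : Y → E) k := by
    intro b₁ k b₂ h1 h2
    rw [f.2.1 _ _ h2]
    have h3 := congrArg (fun F : Fs cs h T n X q N => (F : Y → E) k) (hf _ (inv_mem h1))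
    beta_reduce at h3
    rwa [sig_apply, inv_inv] at h3
  obtain ⟨b₁, h1, k, hk, b₂, h2, rfl⟩ := hg
  obtain ⟨b₁', h1', k', hk', b₂', h2', rfl⟩ := hg'
  rw [key h1 h2, key h1' h2', ← f.2.1 k _ (RGD.T_le_B (hk.unique hk')), mul_inv_cancel_left]

omit hG in
theorem value {f : Fs cs h T n X q N} (hf : f ∈ fx (sig cs h T n X q N) (RGD.B cs h T X)) :
    ∀ (l : ℕ) (w : W), cs.length w = l → ∀ g, Cell R.nsys cs h X w g →
      (f : Y → E) g = aw cs N w⁻¹ ((f : Y → E) 1) := by
  intro l
  induction l with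
  | zero =>
    intro w hw g hg
    obtain rfl : w = 1 := cs.length_eq_zero_iff.1 hw
    rw [inv_one, aw_one cs hN, Module.End.one_apply, ← one_mul g, f.2.1 _ _ hg.mem_of_one]
  | succ l ih =>
    intro w hw g hg
    obtain ⟨i, hi⟩ : ∃ i, cs.IsRightDescent w i := cs.exists_rightDescent_of_ne_one (by
      rintro rfl
      rw [cs.length_one] at hw
      omega)
    have hi' := (cs.isRightDescent_iff).1 hi
    obtain ⟨w', hw'⟩ : ∃ w', w' = w * cs.simple i := ⟨_, rfl⟩
    have e0 : w = w' * cs.simple i := by rw [hw', simple_mul_simple_cancel_right]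
    have hl : cs.length w' = l := by rw [hw']; omega
    obtain ⟨k, hk⟩ := exists_rp cs R.nsys w'
    have hk' : Cell R.nsys cs h X w' k := cell_of_rp hk
    have h0 : 0 ≤ rep cs h w' (sr i) := (lt_iff' cs h w' i).1 (by rw [← e0]; omega)
    have h1 := f.2.2 i k
    have := Fintype.ofFinite (X (sr i))
    have hcard : (Fintype.card (X (sr i)) : ℂ) = q i := by rw [← hq, Nat.card_eq_fintype_card]
    have h2 : ∀ x : X (sr i), (f : Y → E) (k * x * n i) = (f : Y → E) g := fun x =>
      cell_const R hf (w := w) (by rw [e0]; exact cell_pos R h0 hk' x.2) hg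
    rw [finsum_eq_sum_of_fintype, Finset.sum_congr rfl fun x _ => h2 x, Finset.sum_const, Finset.card_univ,
      ← Nat.cast_smul_eq_nsmul ℂ, hcard] at h1
    have hq0 : (q i : ℂ) ≠ 0 := by
      rw [← hq i]
      exact_mod_cast Nat.card_pos.ne'
    have h3 := smul_right_injective E hq0 h1
    have e1 : w⁻¹ = cs.simple i * w'⁻¹ := by rw [e0, mul_inv_rev, cs.inv_simple]
    rw [h3, ih w' hl k hk', e1, aw_mul cs hN, Module.End.mul_apply]
    rw [← e1, cs.length_inv, cs.length_inv]
    omega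

/-- evaluation is injective on the `B`-invariants -/
theorem eq_of_ev {f f' : Fs cs h T n X q N} (hf : f ∈ fx (sig cs h T n X q N) (RGD.B cs h T X))
    (hf' : f' ∈ fx (sig cs h T n X q N) (RGD.B cs h T X)) (he : (f : Y → E) 1 = (f' : Y → E) 1) : f = f' := by
  refine Subtype.ext (funext fun g => ?_)
  rw [value R hq hN hf _ _ rfl g (cell_wOf R hG g), value R hq hN hf' _ _ rfl g (cell_wOf R hG g), he]

omit hq hN in
/-- the value of the average -/
theorem av_apply_one (H : Subgroup Y) (f : Fs cs h T n X q N) (v : E) (hv : ∀ y ∈ H, (f : Y → E) y = v) :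
    ((av (sig cs h T n X q N) H f : Fs cs h T n X q N) : Y → E) 1 = v := by
  classical
  have := Fintype.ofFinite H
  rw [av_apply]
  have h1 : ∀ F : H → Fs cs h T n X q N, ((∑ y, F y : Fs cs h T n X q N) : Y → E) 1 = ∑ y, (F y : Y → E) 1 := by
    intro F
    rw [Submodule.coe_sum, Finset.sum_apply]
  rw [Submodule.coe_smul, Pi.smul_apply, h1]
  have h2 : ∀ y : H, ((sig cs h T n X q N y f : Fs cs h T n X q N) : Y → E) 1 = v := fun y => by
    rw [sig_apply, mul_one]
    exact hv _ (inv_mem y.2)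
  rw [Finset.sum_congr rfl fun y _ => h2 y, Finset.sum_const, Finset.card_univ, ← Nat.card_eq_fintype_card,
    ← Nat.cast_smul_eq_nsmul ℂ, smul_smul, inv_mul_cancel₀ (card_ne H), one_smul]

omit hG hN in
theorem N_one (f : Fs cs h T n X q N) (i : I) :
    N i ((f : Y → E) 1) = (q i : ℂ)⁻¹ • ∑ᶠ x : X (sr i), (f : Y → E) (x * n i) := by
  have hq0 : (q i : ℂ) ≠ 0 := by
    rw [← hq i]
    exact_mod_cast Nat.card_pos.ne'
  have h1 := f.2.2 i 1
  rw [← inv_smul_eq_iff₀ hq0] at h1
  rw [← h1]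
  congr 1
  refine finsum_congr fun x => ?_
  rw [one_mul]

/-- **The `P_K`-invariants.** -/
theorem mem_fx_PJ {f : Fs cs h T n X q N} (hf : f ∈ fx (sig cs h T n X q N) (RGD.B cs h T X)) (K : Set I) :
    f ∈ fx (sig cs h T n X q N) (PJ cs h T X K) ↔ ∀ i ∈ K, N i ((f : Y → E) 1) = (f : Y → E) 1 := by
  constructor
  · intro h1 i hi
    rw [N_one R hq f i]
    have := Fintype.ofFinite (X (sr i))
    have hcard : (Fintype.card (X (sr i)) : ℂ) = q i := by rw [← hq, Nat.card_eq_fintype_card]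
    have hq0 : (q i : ℂ) ≠ 0 := by
      rw [← hq i]
      exact_mod_cast Nat.card_pos.ne'
    have h2 : ∀ x : X (sr i), (f : Y → E) (x * n i) = (f : Y → E) 1 := fun x => by
      have hm : (x * n i : Y) ∈ PJ cs h T X K :=
        mul_mem (B_le_PJ (RGD.X_le_B (isRoot_sr cs h i) (sr_nonneg i) x.2)) (LJ_le_PJ (n_mem_LJ R hi))
      have h3 := congrArg (fun F : Fs cs h T n X q N => (F : Y → E) 1) (h1 _ (inv_mem hm))
      beta_reduce at h3
      rwa [sig_apply, inv_inv, mul_one] at h3
    rw [finsum_eq_sum_of_fintype, Finset.sum_congr rfl fun x _ => h2 x, Finset.sum_const, Finset.card_univ,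
      ← Nat.cast_smul_eq_nsmul ℂ, hcard, smul_smul, inv_mul_cancel₀ hq0, one_smul]
  · intro h1
    have h2 : ∀ y ∈ PJ cs h T X K, (f : Y → E) y = (f : Y → E) 1 := by
      intro y hy
      obtain ⟨w, hw, hc⟩ := (mem_PJ_iff_cell R).1 hy
      rw [value R hq hN hf _ w rfl y hc]
      obtain ⟨ω, hω, hr, e⟩ := exists_reduced_of_mem_WJ cs (inv_mem hw)
      rw [← e, aw_eq cs hN hr]
      clear hr e
      induction ω with
      | nil => rfl
      | cons i ω ih =>
        rw [List.map_cons, List.prod_cons, Module.End.mul_apply, ih fun j hj => hω j (List.mem_cons_of_mem _ hj),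
          h1 i (hω i List.mem_cons_self)]
    have h3 : av (sig cs h T n X q N) (PJ cs h T X K) f = f := by
      refine eq_of_ev R hG hq hN (fx_mono B_le_PJ (av_mem _ _ _)) hf ?_
      rw [av_apply_one R hG (PJ cs h T X K) f _ h2]
    rw [← h3]
    exact av_mem _ _ _

omit hG hN in
theorem N_ev_mem {S : Submodule ℂ (Fs cs h T n X q N)} (hS : ∀ y, ∀ f ∈ S, sig cs h T n X q N y f ∈ S)
    {f : Fs cs h T n X q N} (hf : f ∈ S) (i : I) : N i ((f : Y → E) 1) ∈ S.map (ev cs h T n X q N) := by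
  classical
  have := Fintype.ofFinite (X (sr i))
  rw [N_one R hq f i, finsum_eq_sum_of_fintype]
  refine Submodule.smul_mem _ _ (Submodule.sum_mem _ fun x _ => ?_)
  refine ⟨_, hS (x * n i : Y)⁻¹ f hf, ?_⟩
  rw [ev_apply, sig_apply, inv_inv, mul_one]

/-- an invariant subspace contains the `B`-invariants -/
theorem fx_le (hirr : ∀ S : Submodule ℂ E, (∀ i, ∀ v ∈ S, N i v ∈ S) → S = ⊥ ∨ S = ⊤)
    {S : Submodule ℂ (Fs cs h T n X q N)} (hS : ∀ y, ∀ f ∈ S, sig cs h T n X q N y f ∈ S) (h0 : S ≠ ⊥) :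
    fx (sig cs h T n X q N) (RGD.B cs h T X) ≤ S := by
  classical
  have h1 : S.map (ev cs h T n X q N) = ⊤ := by
    refine (hirr _ ?_).resolve_left ?_
    · rintro i _ ⟨f, hf, rfl⟩
      exact N_ev_mem R hq hS hf i
    · intro h2
      apply h0
      rw [eq_bot_iff]
      intro f hf
      rw [Submodule.mem_bot]
      refine Subtype.ext (funext fun g => ?_)
      have h3 : ev cs h T n X q N (sig cs h T n X q N g⁻¹ f) ∈ S.map (ev cs h T n X q N) := ⟨_, hS _ f hf, rfl⟩
      rw [h2, Submodule.mem_bot, ev_apply, sig_apply, inv_inv, mul_one] at h3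
      exact h3
  intro f hf
  have h2 : (f : Y → E) 1 ∈ S.map (ev cs h T n X q N) := by rw [h1]; exact Submodule.mem_top
  obtain ⟨f', hf', e⟩ := h2
  rw [ev_apply] at e
  have h3 : av (sig cs h T n X q N) (RGD.B cs h T X) f' ∈ S := by
    have := Fintype.ofFinite (RGD.B cs h T X)
    rw [av_apply]
    exact Submodule.smul_mem _ _ (Submodule.sum_mem _ fun b _ => hS _ _ hf')
  have h4 : av (sig cs h T n X q N) (RGD.B cs h T X) f' = f := by
    refine eq_of_ev R hG hq hN (av_mem _ _ _) hf ?_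
    rw [av_apply_one R hG (RGD.B cs h T X) f' ((f' : Y → E) 1) fun b hb => ?_, e]
    rw [← one_mul b, f'.2.1 1 b hb]
  rwa [h4] at h3

/-- **The representation on `Fs` is irreducible.** -/
theorem irred [Nontrivial E] (hirr : ∀ S : Submodule ℂ E, (∀ i, ∀ v ∈ S, N i v ∈ S) → S = ⊥ ∨ S = ⊤) :
    (sig cs h T n X q N).IsIrreducible := by
  obtain ⟨v, hv⟩ := exists_ne (0 : E)
  obtain ⟨f, hf, hf1⟩ := exists_fun R hG hq hN v
  have hf0 : f ≠ 0 := by
    rintro rfl
    apply hv
    have h1 := hf1 1 1 (cell_of_rp rp_one)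
    rw [inv_one, aw_one cs hN, Module.End.one_apply] at h1
    exact h1.symm
  refine { exists_pair_ne := ⟨⊥, ⊤, fun e => ?_⟩, eq_bot_or_eq_top := fun S => ?_ }
  · have h1 : f ∈ (⊤ : Subrepresentation (sig cs h T n X q N)) := Submodule.mem_top (R := ℂ)
    rw [← e] at h1
    exact hf0 ((Submodule.mem_bot ℂ).1 h1)
  · by_contra hcon
    push Not at hcon
    obtain ⟨h1, h2⟩ := hcon
    obtain ⟨S', hS'⟩ := Cfsg.Agent.Characters.Core.exists_isCompl_sub S
    have h3 : S.toSubmodule ≠ ⊥ := fun h3 => h1 (Subrepresentation.toSubmodule_injective h3)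
    have h4 : S'.toSubmodule ≠ ⊥ := by
      intro h4
      rw [h4] at hS'
      exact h2 (Subrepresentation.toSubmodule_injective (eq_top_of_isCompl_bot hS'))
    have h5 := fx_le R hG hq hN hirr (S := S.toSubmodule) (fun y g hg => S.apply_mem_toSubmodule y hg) h3 hf
    have h6 := fx_le R hG hq hN hirr (S := S'.toSubmodule) (fun y g hg => S'.apply_mem_toSubmodule y hg) h4 hf
    have h7 : f ∈ S.toSubmodule ⊓ S'.toSubmodule := ⟨h5, h6⟩
    rw [hS'.inf_eq_bot, Submodule.mem_bot] at h7
    exact hf0 h7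

/-- the vectors fixed by the `N i`, `i ∈ K` -/
def fk (N : I → Module.End ℂ E) (K : Set I) : Submodule ℂ E where
  carrier := {v | ∀ i ∈ K, N i v = v}
  add_mem' := fun {v w} hv hw i hi => by rw [map_add, hv i hi, hw i hi]
  zero_mem' := fun i _ => map_zero _
  smul_mem' := fun c v hv i hi => by rw [map_smul, hv i hi]

theorem finrank_fx (K : Set I) :
    finrank ℂ (fx (sig cs h T n X q N) (PJ cs h T X K)) = finrank ℂ (fk N K) := by
  have hle : fx (sig cs h T n X q N) (PJ cs h T X K) ≤ fx (sig cs h T n X q N) (RGD.B cs h T X) := fx_mono B_le_PJ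
  let φ : fx (sig cs h T n X q N) (PJ cs h T X K) →ₗ[ℂ] fk N K :=
    { toFun := fun f => ⟨((f : Fs cs h T n X q N) : Y → E) 1, (mem_fx_PJ R hG hq hN (hle f.2) K).1 f.2⟩
      map_add' := fun _ _ => rfl
      map_smul' := fun _ _ => rfl }
  refine (LinearEquiv.ofBijective φ ⟨fun f f' e => ?_, fun v => ?_⟩).finrank_eq
  · have e' := congrArg Subtype.val e
    exact Subtype.ext (eq_of_ev R hG hq hN (hle f.2) (hle f'.2) e')
  · obtain ⟨f, hf, hf1⟩ := exists_fun R hG hq hN (v : E)
    have h1 : (f : Y → E) 1 = v := by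
      have h1 := hf1 1 1 (cell_of_rp rp_one)
      rwa [inv_one, aw_one cs hN, Module.End.one_apply] at h1
    refine ⟨⟨f, (mem_fx_PJ R hG hq hN hf K).2 fun i hi => ?_⟩, ?_⟩
    · rw [h1]
      exact v.2 i hi
    · exact Subtype.ext h1

end R

end Fun

end Cfsg.Agent.H589.FF
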