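import Cfsg.Agent.H589.FF.WFour
import Cfsg.Agent.H589.FF.Lift
import Cfsg.Agent.S1092

/-!
# S4842: sums over the Weyl group of type `F₄` (helper589)

* `WF.isRed`, `WF.isMinR_of` : tests for reduced words and minimal representatives;
* `WF.sum_eq` : a sum over `W_K` as a sum over the minimal representatives of `W_K / W_J`;
* `WF.macdonald` : the two-parameter Poincaré polynomial of `F₄`.
-/

set_option autoImplicit false
set_option linter.unusedSectionVars false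

namespace Cfsg.Agent.H589.FF.WF

open CoxeterSystem Cfsg.Agent.ChevalleyStructure.CoxeterGeom Cfsg.Agent.Tits.Roots Cfsg.Agent.Tits.Core
  Cfsg.Agent.Tits.Exchange

def ee : Fin 4 → T4
  | 0 => (1, 0, 0, 0)
  | 1 => (0, 1, 0, 0)
  | 2 => (0, 0, 1, 0)
  | 3 => (0, 0, 0, 1)

theorem vec_ee (i : Fin 4) : vec (ee i) = Pi.single i 1 := by
  funext j
  fin_cases i <;> fin_cases j <;> rfl

def nn (t : T4) : Bool := decide (0 ≤ t.1) && (decide (0 ≤ t.2.1) && (decide (0 ≤ t.2.2.1) && decide (0 ≤ t.2.2.2)))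

theorem nn_iff (t : T4) : nn t = true ↔ 0 ≤ vec t := by
  obtain ⟨a, b, c, d⟩ := t
  rw [Pi.le_def, Fin.forall_fin_succ, Fin.forall_fin_succ, Fin.forall_fin_succ, Fin.forall_fin_succ]
  simp [nn, vec]

/-- test for reduced words -/
def isRed : List (Fin 4) → Bool
  | [] => true
  | i :: ω => isRed ω && nn (act ω.reverse (ee i))

section

variable {W : Type*} [Group W] (cs : CoxeterSystem CoxeterMatrix.F₄ W)

theorem lt_mul_simple (ω : List (Fin 4)) (j : Fin 4) :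
    cs.length (cs.wordProd ω) < cs.length (cs.wordProd ω * cs.simple j) ↔ nn (act ω (ee j)) = true := by
  rw [lt_iff' cs isCartan, ← vec_ee, rep_vec, nn_iff]

theorem lt_simple_mul (ω : List (Fin 4)) (i : Fin 4) :
    cs.length (cs.wordProd ω) < cs.length (cs.simple i * cs.wordProd ω) ↔ nn (act ω.reverse (ee i)) = true := by
  rw [← cs.length_inv (cs.wordProd ω), ← cs.length_inv (cs.simple i * cs.wordProd ω), mul_inv_rev, cs.inv_simple,
    ← cs.wordProd_reverse, lt_mul_simple]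

theorem isReduced_of {ω : List (Fin 4)} (h : isRed ω = true) : cs.IsReduced ω := by
  induction ω with
  | nil => show cs.length (cs.wordProd []) = 0; rw [cs.wordProd_nil, cs.length_one]
  | cons i ω ih =>
    rw [isRed, Bool.and_eq_true] at h
    have h1 := ih h.1
    have h2 := (lt_simple_mul cs ω i).2 h.2
    have h3 := cs.length_simple_mul (cs.wordProd ω) i
    show cs.length (cs.wordProd (i :: ω)) = (i :: ω).length
    rw [cs.wordProd_cons, List.length_cons, ← h1.eq]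
    omega

theorem isMinR_of {J : Set (Fin 4)} {ω : List (Fin 4)} (h : ∀ j ∈ J, nn (act ω (ee j)) = true) :
    IsMinR cs J (cs.wordProd ω) := (isMinR_iff cs).2 fun j hj => (lt_mul_simple cs ω j).2 (h j hj)

theorem inj {J : Set (Fin 4)} (L : List (List (Fin 4))) (hnd : (L.map code).Nodup)
    (hmin : ∀ ω ∈ L, IsMinR cs J (cs.wordProd ω)) :
    Function.Injective fun p : Fin L.length × WJ cs J => cs.wordProd (L.get p.1) * p.2 := by
  rintro ⟨k, x⟩ ⟨k', x'⟩ e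
  dsimp only at e
  have h1 : cs.wordProd (L.get k') = cs.wordProd (L.get k) * ((x : W) * (x' : W)⁻¹) := by
    rw [← mul_assoc, e, mul_inv_cancel_right]
  have h2 := (hmin _ (L.get_mem k)).unique cs (hmin _ (L.get_mem k')) (mul_mem x.2 (inv_mem x'.2)) h1
  have h3 : k = k' := by
    have h4 := code_of_eq cs h2.symm
    have h5 := (List.nodup_iff_injective_get.1 (List.Nodup.of_map _ hnd))
    exact h5 (List.inj_on_of_nodup_map hnd (L.get_mem k) (L.get_mem k') h4)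
  subst h3
  have h4 : (x : W) = x' := mul_left_cancel e
  rw [Subtype.ext h4]

theorem mem_K {J K : Set (Fin 4)} (hJK : J ⊆ K) (L : List (List (Fin 4))) (hmem : ∀ ω ∈ L, ∀ i ∈ ω, i ∈ K)
    (p : Fin L.length × WJ cs J) : cs.wordProd (L.get p.1) * p.2 ∈ WJ cs K :=
  mul_mem (wordProd_mem_WJ cs (hmem _ (L.get_mem _))) (WJ_mono cs hJK p.2.2)

variable [Finite W]

theorem card_le {J K : Set (Fin 4)} (hJK : J ⊆ K) (L : List (List (Fin 4))) (hmem : ∀ ω ∈ L, ∀ i ∈ ω, i ∈ K)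
    (hnd : (L.map code).Nodup) (hmin : ∀ ω ∈ L, IsMinR cs J (cs.wordProd ω)) :
    L.length * Nat.card (WJ cs J) ≤ Nat.card (WJ cs K) := by
  have h1 := Nat.card_le_card_of_injective (fun p : Fin L.length × WJ cs J =>
    (⟨_, mem_K cs hJK L hmem p⟩ : WJ cs K)) fun p p' e => inj cs L hnd hmin (congrArg Subtype.val e)
  rwa [Nat.card_prod, Nat.card_fin] at h1

theorem sum_eq {J K : Set (Fin 4)} (hJK : J ⊆ K) (L : List (List (Fin 4))) (hmem : ∀ ω ∈ L, ∀ i ∈ ω, i ∈ K)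
    (hnd : (L.map code).Nodup) (hmin : ∀ ω ∈ L, IsMinR cs J (cs.wordProd ω))
    (hcard : Nat.card (WJ cs K) ≤ L.length * Nat.card (WJ cs J)) (f : W → ℂ) :
    ∑ᶠ w : WJ cs K, f w = (L.map fun ω => ∑ᶠ x : WJ cs J, f (cs.wordProd ω * x)).sum := by
  classical
  have := Fintype.ofFinite W
  have hinj : Function.Injective (fun p : Fin L.length × WJ cs J => (⟨_, mem_K cs hJK L hmem p⟩ : WJ cs K)) :=
    fun p p' e => inj cs L hnd hmin (congrArg Subtype.val e)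
  have hbij : Function.Bijective (fun p : Fin L.length × WJ cs J => (⟨_, mem_K cs hJK L hmem p⟩ : WJ cs K)) := by
    refine (Nat.bijective_iff_injective_and_card _).2 ⟨hinj, le_antisymm (Nat.card_le_card_of_injective _ hinj) ?_⟩
    rwa [Nat.card_prod, Nat.card_fin]
  rw [← finsum_comp_equiv (Equiv.ofBijective _ hbij), finsum_eq_sum_of_fintype, Fintype.sum_prod_type]
  conv_rhs => rw [← List.ofFn_get L, List.map_ofFn, List.sum_ofFn]
  refine Finset.sum_congr rfl fun k _ => ?_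
  rw [Function.comp_apply, finsum_eq_sum_of_fintype]
  rfl

/-! ### Multiplicative functions -/

omit [Finite W] in
theorem psi_word {c : Fin 4 → ℂ} {ψ : W → ℂ} (h1 : ψ 1 = 1)
    (hψ : ∀ i w, cs.length w < cs.length (cs.simple i * w) → ψ (cs.simple i * w) = c i * ψ w) {ω : List (Fin 4)}
    (hω : cs.IsReduced ω) : ψ (cs.wordProd ω) = (ω.map c).prod := by
  induction ω with
  | nil => rw [cs.wordProd_nil, h1]; rfl
  | cons i ω ih =>
    have h2 : cs.IsReduced ω := by simpa using hω.drop 1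
    have h3 : cs.length (cs.wordProd ω) < cs.length (cs.simple i * cs.wordProd ω) := by
      rw [← cs.wordProd_cons, hω.eq, h2.eq, List.length_cons]
      omega
    rw [cs.wordProd_cons, hψ i _ h3, ih h2, List.map_cons, List.prod_cons]

omit [Finite W] in
theorem psi_mul {c : Fin 4 → ℂ} {ψ : W → ℂ} (h1 : ψ 1 = 1)
    (hψ : ∀ i w, cs.length w < cs.length (cs.simple i * w) → ψ (cs.simple i * w) = c i * ψ w) {x y : W}
    (hxy : cs.length (x * y) = cs.length x + cs.length y) : ψ (x * y) = ψ x * ψ y := by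
  obtain ⟨ω, h2, rfl⟩ := cs.exists_isReduced x
  obtain ⟨ω', h3, rfl⟩ := cs.exists_isReduced y
  have h4 : cs.IsReduced (ω ++ ω') := by
    show cs.length (cs.wordProd (ω ++ ω')) = (ω ++ ω').length
    rw [cs.wordProd_append, hxy, h2.eq, h3.eq, List.length_append]
  rw [← cs.wordProd_append, psi_word cs h1 hψ h4, psi_word cs h1 hψ h2, psi_word cs h1 hψ h3, List.map_append,
    List.prod_append]

theorem sum_psi {c : Fin 4 → ℂ} {ψ : W → ℂ} (h1 : ψ 1 = 1)
    (hψ : ∀ i w, cs.length w < cs.length (cs.simple i * w) → ψ (cs.simple i * w) = c i * ψ w)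
    {J K : Set (Fin 4)} (hJK : J ⊆ K) (L : List (List (Fin 4))) (hmem : ∀ ω ∈ L, ∀ i ∈ ω, i ∈ K)
    (hred : ∀ ω ∈ L, isRed ω = true)
    (hnd : (L.map code).Nodup) (hmin : ∀ ω ∈ L, IsMinR cs J (cs.wordProd ω))
    (hcard : Nat.card (WJ cs K) ≤ L.length * Nat.card (WJ cs J)) :
    ∑ᶠ w : WJ cs K, ψ w = (L.map fun ω => (ω.map c).prod).sum * ∑ᶠ x : WJ cs J, ψ x := by
  rw [sum_eq cs hJK L hmem hnd hmin hcard ψ, ← List.sum_map_mul_right]
  congr 1
  refine List.map_congr_left fun ω hω => ?_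
  have := Fintype.ofFinite (WJ cs J)
  rw [finsum_eq_sum_of_fintype, finsum_eq_sum_of_fintype, Finset.mul_sum]
  refine Finset.sum_congr rfl fun x _ => ?_
  rw [psi_mul cs h1 hψ (hmin ω hω x x.2), psi_word cs h1 hψ (isReduced_of cs (hred ω hω))]

include cs in
omit [Finite W] in
theorem card_W : Nat.card W = 1152 := by
  rw [Nat.card_congr cs.mulEquiv.toEquiv]
  exact S1092.result (⟨4, CoxeterMatrix.F₄⟩, 1152) (by simp)

/-- `W / W_{012}` -/
def La : List (List (Fin 4)) := [[], [3], [2, 3], [1, 2, 3], [0, 1, 2, 3], [2, 1, 2, 3], [2, 0, 1, 2, 3],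
  [3, 2, 1, 2, 3], [1, 2, 0, 1, 2, 3], [3, 2, 0, 1, 2, 3], [2, 1, 2, 0, 1, 2, 3], [3, 1, 2, 0, 1, 2, 3],
  [2, 3, 1, 2, 0, 1, 2, 3], [3, 2, 1, 2, 0, 1, 2, 3], [1, 2, 3, 1, 2, 0, 1, 2, 3], [2, 3, 2, 1, 2, 0, 1, 2, 3],
  [0, 1, 2, 3, 1, 2, 0, 1, 2, 3], [1, 2, 3, 2, 1, 2, 0, 1, 2, 3], [0, 1, 2, 3, 2, 1, 2, 0, 1, 2, 3],
  [2, 1, 2, 3, 2, 1, 2, 0, 1, 2, 3], [2, 0, 1, 2, 3, 2, 1, 2, 0, 1, 2, 3], [1, 2, 0, 1, 2, 3, 2, 1, 2, 0, 1, 2, 3],
  [2, 1, 2, 0, 1, 2, 3, 2, 1, 2, 0, 1, 2, 3], [3, 2, 1, 2, 0, 1, 2, 3, 2, 1, 2, 0, 1, 2, 3]]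

/-- `W_{012} / W_{01}` -/
def Lb : List (List (Fin 4)) := [[], [2], [1, 2], [0, 1, 2], [2, 1, 2], [2, 0, 1, 2], [1, 2, 0, 1, 2],
  [2, 1, 2, 0, 1, 2]]

def Lc : List (List (Fin 4)) := [[], [1], [0, 1]]

def Ld : List (List (Fin 4)) := [[], [0]]

omit [Finite W] in
theorem min_La : ∀ ω ∈ La, IsMinR cs ({0, 1, 2} : Set (Fin 4)) (cs.wordProd ω) := by
  have h1 : ∀ ω ∈ La, ∀ j ∈ [(0 : Fin 4), 1, 2], nn (act ω (ee j)) = true := by decide +kernel
  exact fun ω hω => isMinR_of cs fun j hj => h1 ω hω j (by simpa using hj)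

omit [Finite W] in
theorem min_Lb : ∀ ω ∈ Lb, IsMinR cs ({0, 1} : Set (Fin 4)) (cs.wordProd ω) := by
  have h1 : ∀ ω ∈ Lb, ∀ j ∈ [(0 : Fin 4), 1], nn (act ω (ee j)) = true := by decide +kernel
  exact fun ω hω => isMinR_of cs fun j hj => h1 ω hω j (by simpa using hj)

omit [Finite W] in
theorem min_Lc : ∀ ω ∈ Lc, IsMinR cs ({0} : Set (Fin 4)) (cs.wordProd ω) := by
  have h1 : ∀ ω ∈ Lc, ∀ j ∈ [(0 : Fin 4)], nn (act ω (ee j)) = true := by decide +kernel
  exact fun ω hω => isMinR_of cs fun j hj => h1 ω hω j (by simpa using hj)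

omit [Finite W] in
theorem min_Ld : ∀ ω ∈ Ld, IsMinR cs (∅ : Set (Fin 4)) (cs.wordProd ω) :=
  fun _ _ => isMinR_of cs fun _ hj => absurd hj (Set.notMem_empty _)

omit [Finite W] in
theorem mem_Lb : ∀ ω ∈ Lb, ∀ i ∈ ω, i ∈ ({0, 1, 2} : Set (Fin 4)) := by
  have h1 : ∀ ω ∈ Lb, ∀ i ∈ ω, i ∈ [(0 : Fin 4), 1, 2] := by decide +kernel
  exact fun ω hω i hi => by simpa using h1 ω hω i hi

omit [Finite W] in
theorem mem_Lc : ∀ ω ∈ Lc, ∀ i ∈ ω, i ∈ ({0, 1} : Set (Fin 4)) := by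
  have h1 : ∀ ω ∈ Lc, ∀ i ∈ ω, i ∈ [(0 : Fin 4), 1] := by decide +kernel
  exact fun ω hω i hi => by simpa using h1 ω hω i hi

omit [Finite W] in
theorem mem_Ld : ∀ ω ∈ Ld, ∀ i ∈ ω, i ∈ ({0} : Set (Fin 4)) := by
  have h1 : ∀ ω ∈ Ld, ∀ i ∈ ω, i ∈ [(0 : Fin 4)] := by decide +kernel
  exact fun ω hω i hi => by simpa using h1 ω hω i hi

theorem cards : Nat.card (WJ cs (Set.univ : Set (Fin 4))) = 1152 ∧ Nat.card (WJ cs ({0, 1, 2} : Set (Fin 4))) = 48 ∧
    Nat.card (WJ cs ({0, 1} : Set (Fin 4))) = 6 ∧ Nat.card (WJ cs ({0} : Set (Fin 4))) = 2 ∧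
    Nat.card (WJ cs (∅ : Set (Fin 4))) = 1 := by
  have h0 : Nat.card (WJ cs (Set.univ : Set (Fin 4))) = 1152 := by
    rw [WJ_univ, Subgroup.card_top, card_W cs]
  have h1 := card_le cs (Set.subset_univ ({0, 1, 2} : Set (Fin 4))) La (fun _ _ _ _ => Set.mem_univ _)
    (by decide +kernel) (min_La cs)
  have h2 := card_le cs (J := {0, 1}) (K := {0, 1, 2}) (by simp [Set.insert_subset_iff]) Lb mem_Lb (by decide +kernel)
    (min_Lb cs)
  have h3 := card_le cs (J := {0}) (K := {0, 1}) (by simp) Lc mem_Lc (by decide +kernel) (min_Lc cs)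
  have h4 := card_le cs (J := ∅) (K := {0}) (by simp) Ld mem_Ld (by decide +kernel) (min_Ld cs)
  have h5 : 0 < Nat.card (WJ cs (∅ : Set (Fin 4))) := Nat.card_pos
  rw [h0] at h1
  simp only [La, Lb, Lc, Ld, List.length_cons, List.length_nil] at h1 h2 h3 h4
  omega

/-- **The two-parameter Poincaré polynomial of `F₄`.** -/
theorem macdonald {c : Fin 4 → ℂ} {u v : ℂ} (c0 : c 0 = u) (c1 : c 1 = u) (c2 : c 2 = v) (c3 : c 3 = v) {ψ : W → ℂ}
    (h1 : ψ 1 = 1) (hψ : ∀ i w, cs.length w < cs.length (cs.simple i * w) → ψ (cs.simple i * w) = c i * ψ w) :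
    ∑ᶠ w : W, ψ w = (1 + u) * (1 + u + u ^ 2) * ((1 + v) * (1 + u * v) * (1 + u ^ 2 * v)) *
      ((1 + v + v ^ 2) * (1 + u * v ^ 2) * (1 + u ^ 2 * v ^ 2) * (1 + u ^ 3 * v ^ 3)) := by
  obtain ⟨k0, k1, k2, k3, k4⟩ := cards cs
  have e0 := sum_psi cs h1 hψ (Set.subset_univ ({0, 1, 2} : Set (Fin 4))) La (fun _ _ _ _ => Set.mem_univ _)
    (by decide +kernel) (by decide +kernel) (min_La cs) (by rw [k0, k1]; decide)
  have e1 := sum_psi cs h1 hψ (J := {0, 1}) (K := {0, 1, 2}) (by simp [Set.insert_subset_iff]) Lb mem_Lb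
    (by decide +kernel) (by decide +kernel) (min_Lb cs) (by rw [k1, k2]; decide)
  have e2 := sum_psi cs h1 hψ (J := {0}) (K := {0, 1}) (by simp) Lc mem_Lc (by decide +kernel) (by decide +kernel)
    (min_Lc cs) (by rw [k2, k3]; decide)
  have e3 := sum_psi cs h1 hψ (J := ∅) (K := {0}) (by simp) Ld mem_Ld (by decide +kernel) (by decide +kernel)
    (min_Ld cs) (by rw [k3, k4]; decide)
  have e4 : ∑ᶠ x : WJ cs (∅ : Set (Fin 4)), ψ x = 1 := by
    have : Subsingleton (WJ cs (∅ : Set (Fin 4))) := Finite.card_le_one_iff_subsingleton.1 k4.le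
    have := Fintype.ofFinite (WJ cs (∅ : Set (Fin 4)))
    rw [finsum_eq_sum_of_fintype, Fintype.sum_subsingleton _ (1 : WJ cs (∅ : Set (Fin 4)))]
    exact h1
  have e5 : ∑ᶠ w : WJ cs (Set.univ : Set (Fin 4)), ψ w = ∑ᶠ w : W, ψ w := by
    have e : WJ cs (Set.univ : Set (Fin 4)) ≃ W := by
      rw [WJ_univ]
      exact Subgroup.topEquiv.toEquiv
    rw [WJ_univ]
    exact finsum_comp_equiv (f := ψ) Subgroup.topEquiv.toEquiv
  rw [← e5, e0, e1, e2, e3, e4]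
  simp only [La, Lb, Lc, Ld, List.map_cons, List.map_nil, List.sum_cons, List.sum_nil, List.prod_cons, List.prod_nil,
    c0, c1, c2, c3]
  ring

end

end Cfsg.Agent.H589.FF.WF
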