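import Mathlib

/-!
# S4842: the arithmetic of the identification for type `F₄` (helper589)
-/

set_option autoImplicit false

namespace Cfsg.Agent.H589.FF

/-- Twelve known elements use up ten of the twelve units; an element with `m ≠ 0`, `m' ≠ 0`, `d > 0` is one of them. -/
theorem arith {ι : Type*} [Fintype ι] [DecidableEq ι] (m m' d : ι → ℤ) (hd : ∀ i, 0 ≤ d i)
    (h1 : ∑ i, m i * m i ≤ 12) (h2 : ∑ i, m' i * m' i ≤ 12) (h3 : ∑ i, m i * m' i = 0)
    (h4 : ∑ i, m i * d i = 0) (h5 : ∑ i, m' i * d i = 0) (S : Finset ι)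
    (s1 : ∑ i ∈ S, m i * m i = 10) (s2 : ∑ i ∈ S, m' i * m' i = 10) (s3 : ∑ i ∈ S, m i * m' i = 0)
    (s4 : ∑ i ∈ S, m i * d i = 0) (s5 : ∑ i ∈ S, m' i * d i = 0) (a : ι) (ha : m a ≠ 0) (ha' : m' a ≠ 0)
    (hda : 0 < d a) : a ∈ S := by
  by_contra haS
  have sq : ∀ x : ℤ, x ≠ 0 → 1 ≤ x * x := fun x hx => by
    have := mul_self_pos.2 hx
    omega
  -- the rest
  have split : ∀ f : ι → ℤ, ∑ i, f i = ∑ i ∈ S, f i + (f a + ∑ i ∈ Sᶜ.erase a, f i) := by
    intro f
    rw [Finset.add_sum_erase _ _ (Finset.mem_compl.2 haS), Finset.sum_add_sum_compl]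
  rw [split, s1] at h1
  rw [split, s2] at h2
  rw [split, s3] at h3
  rw [split, s4] at h4
  rw [split, s5] at h5
  -- the partner
  obtain ⟨b, hb, hmb⟩ : ∃ b ∈ Sᶜ.erase a, m b ≠ 0 := by
    by_contra hcon
    push Not at hcon
    rw [Finset.sum_eq_zero (fun i hi => by rw [hcon i hi, zero_mul])] at h4
    have : m a * d a = 0 := by omega
    rcases mul_eq_zero.1 this with h | h
    · exact ha h
    · omega
  have split2 : ∀ f : ι → ℤ, ∑ i ∈ Sᶜ.erase a, f i = f b + ∑ i ∈ (Sᶜ.erase a).erase b, f i := by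
    intro f
    rw [Finset.add_sum_erase _ _ hb]
  have pos : ∀ f : ι → ℤ, 0 ≤ ∑ i ∈ (Sᶜ.erase a).erase b, f i * f i := fun f =>
    Finset.sum_nonneg fun i _ => mul_self_nonneg _
  rw [split2] at h1 h2 h3 h4 h5
  have hza := sq _ ha
  have hzb := sq _ hmb
  have hza' := sq _ ha'
  have hr := pos m
  have hma : m a * m a = 1 := by omega
  have hmb1 : m b * m b = 1 := by omega
  have hr0 : ∑ i ∈ (Sᶜ.erase a).erase b, m i * m i = 0 := by omega
  have hm0 : ∀ i ∈ (Sᶜ.erase a).erase b, m i = 0 := fun i hi =>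
    mul_self_eq_zero.1 ((Finset.sum_eq_zero_iff_of_nonneg fun i _ => mul_self_nonneg (m i)).1 hr0 i hi)
  rw [Finset.sum_eq_zero (fun i hi => by rw [hm0 i hi, zero_mul])] at h4
  rw [Finset.sum_eq_zero (fun i hi => by rw [hm0 i hi, zero_mul])] at h3
  have e4 : m a * d a + m b * d b = 0 := by omega
  have e3 : m a * m' a + m b * m' b = 0 := by omega
  have ca : m a = 1 ∨ m a = -1 := by
    rcases Int.eq_one_or_neg_one_of_mul_eq_one hma with h | h
    · exact Or.inl h
    · exact Or.inr h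
  have cb : m b = 1 ∨ m b = -1 := by
    rcases Int.eq_one_or_neg_one_of_mul_eq_one hmb1 with h | h
    · exact Or.inl h
    · exact Or.inr h
  have hdb := hd b
  have key : m b = - m a ∧ d b = d a := by
    rcases ca with h | h <;> rcases cb with h' | h' <;> rw [h, h'] at e4 <;> rw [h, h'] <;> constructor <;> omega
  obtain ⟨k1, k2⟩ := key
  have k3 : m' b = m' a := by
    rw [k1] at e3
    have : m a * (m' a - m' b) = 0 := by linarith
    rcases mul_eq_zero.1 this with h | h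
    · exact absurd h ha
    · omega
  have hr' := pos m'
  rw [k3] at h2
  have hr0' : ∑ i ∈ (Sᶜ.erase a).erase b, m' i * m' i = 0 := by omega
  have hm0' : ∀ i ∈ (Sᶜ.erase a).erase b, m' i = 0 := fun i hi =>
    mul_self_eq_zero.1 ((Finset.sum_eq_zero_iff_of_nonneg fun i _ => mul_self_nonneg (m' i)).1 hr0' i hi)
  rw [Finset.sum_eq_zero (fun i hi => by rw [hm0' i hi, zero_mul]), k3, k2] at h5
  have : m' a * d a = 0 := by omega
  rcases mul_eq_zero.1 this with h | h
  · exact ha' h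
  · omega

end Cfsg.Agent.H589.FF
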