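import Cfsg.Agent.H589.FF.Sum

/-!
# S4842: sums over `W(F₄)` along double cosets (helper589)

`WF.sum_dc013`, `WF.sum_dc023` : if `Φ(s_k w) = r Φ(w)` (`k ∈ K`) and `Φ(w s_j) = q Φ(w)` (`j ∈ J`) for lengthening
steps, only five of the thirteen double cosets of `W_K \ W / W_J` contribute to `∑ Φ`.
-/

set_option autoImplicit false
set_option linter.unusedSectionVars false

namespace Cfsg.Agent.H589.FF.WF

open CoxeterSystem Cfsg.Agent.ChevalleyStructure.CoxeterGeom Cfsg.Agent.Tits.Roots Cfsg.Agent.Tits.Core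
  Cfsg.Agent.Tits.Exchange

/-- the words of the representatives -/
def LL (DD : List (List (Fin 4) × List (List (Fin 4)))) : List (List (Fin 4)) :=
  DD.flatMap fun d => d.2.map (· ++ d.1)

section

variable {W : Type*} [Group W] (cs : CoxeterSystem CoxeterMatrix.F₄ W)

theorem phi_left {K : Set (Fin 4)} {Φ : W → ℂ} {r : ℂ}
    (hL : ∀ k ∈ K, ∀ w, cs.length w < cs.length (cs.simple k * w) → Φ (cs.simple k * w) = r * Φ w)
    (x d : List (Fin 4)) (hx : ∀ i ∈ x, i ∈ K) (hred : cs.IsReduced (x ++ d)) :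
    Φ (cs.wordProd (x ++ d)) = r ^ x.length * Φ (cs.wordProd d) := by
  induction x with
  | nil => rw [List.nil_append, List.length_nil, pow_zero, one_mul]
  | cons i x ih =>
    have h2 : cs.IsReduced (x ++ d) := by simpa using hred.drop 1
    have h3 : cs.length (cs.wordProd (x ++ d)) < cs.length (cs.simple i * cs.wordProd (x ++ d)) := by
      rw [← cs.wordProd_cons, ← List.cons_append, hred.eq, h2.eq, List.cons_append, List.length_cons]
      omega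
    rw [List.cons_append, cs.wordProd_cons, hL i (hx i List.mem_cons_self) _ h3,
      ih (fun j hj => hx j (List.mem_cons_of_mem _ hj)) h2, List.length_cons, pow_succ]
    ring

theorem phi_right {J : Set (Fin 4)} {Φ : W → ℂ} {q : ℂ}
    (hR : ∀ j ∈ J, ∀ w, cs.length w < cs.length (w * cs.simple j) → Φ (w * cs.simple j) = q * Φ w)
    {w : W} (hw : IsMinR cs J w) {x : W} (hx : x ∈ WJ cs J) : Φ (w * x) = q ^ cs.length x * Φ w := by
  obtain ⟨ω, h1, h2, rfl⟩ := exists_reduced_of_mem_WJ cs hx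
  clear hx
  induction ω using List.reverseRecOn with
  | nil => rw [cs.wordProd_nil, mul_one, cs.length_one, pow_zero, one_mul]
  | append_singleton ω i ih =>
    have hi : i ∈ J := h1 i (by simp)
    have hω : ∀ j ∈ ω, j ∈ J := fun j hj => h1 j (by simp [hj])
    have h3 : cs.IsReduced ω := by
      have h4 := h2.take ω.length
      rwa [List.take_left] at h4
    have h5 := hw _ (wordProd_mem_WJ cs hω)
    have h6 := hw _ (wordProd_mem_WJ cs h1)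
    have h7 : w * cs.wordProd (ω ++ [i]) = w * cs.wordProd ω * cs.simple i := by
      rw [cs.wordProd_append, cs.wordProd_singleton, mul_assoc]
    rw [h7] at h6 ⊢
    rw [h2.eq, List.length_append, List.length_singleton] at h6 ⊢
    rw [h3.eq] at h5
    rw [hR i hi _ (by omega), ih hω h3, h3.eq, pow_succ]
    ring

/-- the intersection of the two parabolic subgroups is not trivial -/
theorem phi_zero {J K : Set (Fin 4)} {Φ : W → ℂ} {q r : ℂ} (hqr : q ≠ r)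
    (hL : ∀ k ∈ K, ∀ w, cs.length w < cs.length (cs.simple k * w) → Φ (cs.simple k * w) = r * Φ w)
    (hR : ∀ j ∈ J, ∀ w, cs.length w < cs.length (w * cs.simple j) → Φ (w * cs.simple j) = q * Φ w)
    {d : List (Fin 4)} {j k : Fin 4} (hj : j ∈ J) (hk : k ∈ K)
    (h1 : (nn (act d (ee j)) && nn (act d.reverse (ee k)) && decide (code (k :: d) = code (d ++ [j]))) = true) :
    Φ (cs.wordProd d) = 0 := by
  rw [Bool.and_eq_true, Bool.and_eq_true, decide_eq_true_eq] at h1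
  have h2 := hR j hj _ ((lt_mul_simple cs d j).2 h1.1.1)
  have h3 := hL k hk _ ((lt_simple_mul cs d k).2 h1.1.2)
  have h4 := eq_of_code cs h1.2
  rw [cs.wordProd_cons, cs.wordProd_append, cs.wordProd_singleton] at h4
  rw [h4, h2] at h3
  have h5 : (q - r) * Φ (cs.wordProd d) = 0 := by linear_combination h3
  exact (mul_eq_zero.1 h5).resolve_left (sub_ne_zero.2 hqr)

variable [Finite W]

theorem sum_dc {J K : Set (Fin 4)} (DD : List (List (Fin 4) × List (List (Fin 4))))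
    (hred : ∀ d ∈ DD, ∀ x ∈ d.2, isRed (x ++ d.1) = true) (hK : ∀ d ∈ DD, ∀ x ∈ d.2, ∀ i ∈ x, i ∈ K)
    (hnd : ((LL DD).map code).Nodup) (hmin : ∀ ω ∈ LL DD, IsMinR cs J (cs.wordProd ω))
    (hcard : 1152 ≤ (LL DD).length * Nat.card (WJ cs J)) {Φ : W → ℂ} {q r : ℂ}
    (hL : ∀ k ∈ K, ∀ w, cs.length w < cs.length (cs.simple k * w) → Φ (cs.simple k * w) = r * Φ w)
    (hR : ∀ j ∈ J, ∀ w, cs.length w < cs.length (w * cs.simple j) → Φ (w * cs.simple j) = q * Φ w) :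
    ∑ᶠ w : W, Φ w = (∑ᶠ x : WJ cs J, q ^ cs.length (x : W)) *
      (DD.map fun d => (d.2.map fun x => r ^ x.length).sum * Φ (cs.wordProd d.1)).sum := by
  have e5 : ∑ᶠ w : WJ cs (Set.univ : Set (Fin 4)), Φ w = ∑ᶠ w : W, Φ w := by
    rw [WJ_univ]
    exact finsum_comp_equiv (f := Φ) Subgroup.topEquiv.toEquiv
  rw [← e5, sum_eq cs (Set.subset_univ J) (LL DD) (fun _ _ _ _ => Set.mem_univ _) hnd hmin
    (by rw [WJ_univ, Subgroup.card_top, card_W cs]; exact hcard)]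
  have h1 : ∀ ω ∈ LL DD, ∑ᶠ x : WJ cs J, Φ (cs.wordProd ω * x) =
      (∑ᶠ x : WJ cs J, q ^ cs.length (x : W)) * Φ (cs.wordProd ω) := by
    intro ω hω
    rw [finsum_mul]
    exact finsum_congr fun x => phi_right cs hR (hmin ω hω) x.2
  rw [List.map_congr_left h1, List.sum_map_mul_left]
  congr 1
  rw [LL, List.map_flatMap, List.flatMap_def, List.sum_flatten, List.map_map]
  congr 1
  refine List.map_congr_left fun d hd => ?_
  rw [Function.comp_apply, List.map_map, ← List.sum_map_mul_right]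
  congr 1
  refine List.map_congr_left fun x hx => ?_
  exact phi_left cs hL x d.1 (hK d hd x hx) (isReduced_of cs (hred d hd x hx))

end

/-- `K = {0, 2, 3}`, `J = {0, 1, 3}` -/
def D1 : List (List (Fin 4) × List (List (Fin 4))) := [
  ([],
    [[], [2], [3, 2]]),
  ([1, 2],
    [[], [0], [2], [3], [2, 0], [2, 3], [3, 0], [3, 2], [2, 3, 0], [2, 3, 2], [3, 2, 0], [2, 3, 2, 0]]),
  ([1, 2, 0, 1, 2],
    [[], [2], [3], [2, 3], [3, 2], [2, 3, 2]]),
  ([1, 2, 3, 1, 2],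
    [[], [0], [3], [2, 3], [3, 0], [2, 3, 0]]),
  ([1, 2, 3, 0, 1, 2],
    [[], [0], [2], [3], [2, 0], [2, 3], [3, 0], [3, 2], [2, 3, 0], [2, 3, 2], [3, 2, 0], [2, 3, 2, 0]]),
  ([1, 2, 3, 1, 2, 0, 1, 2],
    [[], [0], [2], [3], [2, 0], [2, 3], [3, 0], [3, 2], [2, 3, 0], [2, 3, 2], [3, 2, 0], [2, 3, 2, 0]]),
  ([1, 2, 0, 1, 2, 3, 0, 1, 2],
    [[], [3], [2, 3]]),
  ([1, 2, 0, 1, 2, 3, 2, 1, 2],
    [[], [2], [3, 2]]),
  ([1, 2, 0, 1, 2, 3, 2, 0, 1, 2],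
    [[], [0], [2], [3], [2, 0], [2, 3], [3, 0], [3, 2], [2, 3, 0], [2, 3, 2], [3, 2, 0], [2, 3, 2, 0]]),
  ([1, 2, 0, 1, 2, 3, 2, 1, 2, 0, 1, 2],
    [[], [2], [3], [2, 3], [3, 2], [2, 3, 2]]),
  ([1, 2, 3, 1, 2, 0, 1, 2, 3, 0, 1, 2],
    [[], [0], [2], [2, 0], [3, 2], [3, 2, 0]]),
  ([1, 2, 3, 1, 2, 0, 1, 2, 3, 1, 2, 0, 1, 2],
    [[], [0], [2], [3], [2, 0], [2, 3], [3, 0], [3, 2], [2, 3, 0], [2, 3, 2], [3, 2, 0], [2, 3, 2, 0]]),
  ([1, 2, 0, 1, 2, 3, 2, 1, 2, 0, 1, 2, 3, 1, 2, 0, 1, 2],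
    [[], [3], [2, 3]])]


/-- `K = {0, 1, 3}`, `J = {0, 2, 3}` -/
def D2 : List (List (Fin 4) × List (List (Fin 4))) := [
  ([],
    [[], [1], [0, 1]]),
  ([2, 1],
    [[], [0], [1], [3], [0, 1], [1, 0], [3, 0], [3, 1], [0, 1, 0], [3, 0, 1], [3, 1, 0], [3, 0, 1, 0]]),
  ([2, 1, 2, 0, 1],
    [[], [0], [3], [1, 0], [3, 0], [3, 1, 0]]),
  ([2, 3, 1, 2, 1],
    [[], [0], [1], [0, 1], [1, 0], [0, 1, 0]]),
  ([2, 3, 1, 2, 0, 1],
    [[], [0], [1], [3], [0, 1], [1, 0], [3, 0], [3, 1], [0, 1, 0], [3, 0, 1], [3, 1, 0], [3, 0, 1, 0]]),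
  ([2, 1, 2, 3, 0, 1, 2, 1],
    [[], [0], [1], [3], [0, 1], [1, 0], [3, 0], [3, 1], [0, 1, 0], [3, 0, 1], [3, 1, 0], [3, 0, 1, 0]]),
  ([2, 1, 2, 3, 2, 1, 2, 0, 1],
    [[], [0], [1, 0]]),
  ([2, 3, 1, 2, 0, 1, 2, 0, 1],
    [[], [1], [0, 1]]),
  ([2, 1, 2, 3, 2, 0, 1, 2, 0, 1],
    [[], [0], [1], [3], [0, 1], [1, 0], [3, 0], [3, 1], [0, 1, 0], [3, 0, 1], [3, 1, 0], [3, 0, 1, 0]]),
  ([2, 1, 2, 0, 1, 2, 3, 2, 1, 2, 0, 1],
    [[], [1], [3], [0, 1], [3, 1], [3, 0, 1]]),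
  ([2, 3, 1, 2, 0, 1, 2, 3, 0, 1, 2, 1],
    [[], [0], [1], [0, 1], [1, 0], [0, 1, 0]]),
  ([2, 3, 1, 2, 0, 1, 2, 3, 2, 0, 1, 2, 0, 1],
    [[], [0], [1], [3], [0, 1], [1, 0], [3, 0], [3, 1], [0, 1, 0], [3, 0, 1], [3, 1, 0], [3, 0, 1, 0]]),
  ([2, 1, 2, 3, 2, 1, 2, 0, 1, 2, 3, 1, 2, 0, 1, 2, 0, 1],
    [[], [0], [1, 0]])]


section

variable {W : Type*} [Group W] (cs : CoxeterSystem CoxeterMatrix.F₄ W)

theorem min_D1 : ∀ ω ∈ LL D1, IsMinR cs ({0, 1, 3} : Set (Fin 4)) (cs.wordProd ω) := by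
  have h1 : ∀ ω ∈ LL D1, ∀ j ∈ [(0 : Fin 4), 1, 3], nn (act ω (ee j)) = true := by decide +kernel
  exact fun ω hω => isMinR_of cs fun j hj => h1 ω hω j (by simpa using hj)

theorem min_D2 : ∀ ω ∈ LL D2, IsMinR cs ({0, 2, 3} : Set (Fin 4)) (cs.wordProd ω) := by
  have h1 : ∀ ω ∈ LL D2, ∀ j ∈ [(0 : Fin 4), 2, 3], nn (act ω (ee j)) = true := by decide +kernel
  exact fun ω hω => isMinR_of cs fun j hj => h1 ω hω j (by simpa using hj)

theorem nd_D1 : ((LL D1).map code).Nodup := by decide +kernel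

theorem nd_D2 : ((LL D2).map code).Nodup := by decide +kernel

theorem red_D1 : ∀ d ∈ D1, ∀ x ∈ d.2, isRed (x ++ d.1) = true := by decide +kernel

theorem red_D2 : ∀ d ∈ D2, ∀ x ∈ d.2, isRed (x ++ d.1) = true := by decide +kernel

theorem mem_D1 : ∀ d ∈ D1, ∀ x ∈ d.2, ∀ i ∈ x, i ∈ ({0, 2, 3} : Set (Fin 4)) := by
  have h1 : ∀ d ∈ D1, ∀ x ∈ d.2, ∀ i ∈ x, i ∈ [(0 : Fin 4), 2, 3] := by decide +kernel
  exact fun d hd x hx i hi => by simpa using h1 d hd x hx i hi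

theorem mem_D2 : ∀ d ∈ D2, ∀ x ∈ d.2, ∀ i ∈ x, i ∈ ({0, 1, 3} : Set (Fin 4)) := by
  have h1 : ∀ d ∈ D2, ∀ x ∈ d.2, ∀ i ∈ x, i ∈ [(0 : Fin 4), 1, 3] := by decide +kernel
  exact fun d hd x hx i hi => by simpa using h1 d hd x hx i hi

variable [Finite W]

theorem card_min {J : Set (Fin 4)} {D : List (List (Fin 4) × List (List (Fin 4)))} (hD : (LL D).length = 96)
    (hnd : ((LL D).map code).Nodup) (hmin : ∀ ω ∈ LL D, IsMinR cs J (cs.wordProd ω)) : Nat.card (WJ cs J) ≤ 12 := by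
  have h1 := card_le cs (Set.subset_univ J) (LL D) (fun _ _ _ _ => Set.mem_univ _) hnd hmin
  rw [hD, (cards cs).1] at h1
  omega

/-- the Poincaré polynomial of `A₂ × A₁` -/
theorem sum_three {a b c : Fin 4} (JL : List (Fin 4)) (hJ : ∀ i, i ∈ ({a, b, c} : Set (Fin 4)) ↔ i ∈ JL)
    (hred : ∀ ω ∈ LL3 a b c, isRed ω = true) (hnd : ((LL3 a b c).map code).Nodup)
    (hmem : ∀ ω ∈ LL3 a b c, ∀ i ∈ ω, i ∈ JL)
    (hcard : Nat.card (WJ cs ({a, b, c} : Set (Fin 4))) ≤ 12) (z : ℂ) :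
    ∑ᶠ x : WJ cs ({a, b, c} : Set (Fin 4)), z ^ cs.length (x : W) = (1 + z) ^ 2 * (1 + z + z ^ 2) := by
  obtain ⟨k0, k1, k2, k3, k4⟩ := cards cs
  have e4 : ∑ᶠ x : WJ cs (∅ : Set (Fin 4)), z ^ cs.length (x : W) = 1 := by
    have : Subsingleton (WJ cs (∅ : Set (Fin 4))) := Finite.card_le_one_iff_subsingleton.1 k4.le
    have := Fintype.ofFinite (WJ cs (∅ : Set (Fin 4)))
    rw [finsum_eq_sum_of_fintype, Fintype.sum_subsingleton _ (1 : WJ cs (∅ : Set (Fin 4))), Subgroup.coe_one,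
      cs.length_one, pow_zero]
  have e0 := sum_psi cs (c := fun _ => z) (ψ := fun w => z ^ cs.length w) (by rw [cs.length_one, pow_zero])
    (fun i w hw => by
      have e1 := cs.length_simple_mul w i
      rw [show cs.length (cs.simple i * w) = cs.length w + 1 by omega, pow_succ, mul_comm])
    (Set.empty_subset ({a, b, c} : Set (Fin 4))) (LL3 a b c) (fun ω hω i hi => (hJ i).2 (hmem ω hω i hi)) hred hnd
    (fun _ _ => isMinR_of cs fun _ hj => absurd hj (Set.notMem_empty _)) (by rw [k4, mul_one]; exact hcard)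
  rw [e0, e4]
  simp only [LL3, List.map_cons, List.map_nil, List.sum_cons, List.sum_nil, List.prod_cons, List.prod_nil]
  ring

theorem sum_013 (z : ℂ) : ∑ᶠ x : WJ cs ({0, 1, 3} : Set (Fin 4)), z ^ cs.length (x : W) =
    (1 + z) ^ 2 * (1 + z + z ^ 2) :=
  sum_three cs [0, 1, 3] (by simp) (by decide +kernel) (by decide +kernel) (by decide +kernel)
    (card_min cs (by decide +kernel) nd_D1 (min_D1 cs)) z

theorem sum_023 (z : ℂ) : ∑ᶠ x : WJ cs ({0, 2, 3} : Set (Fin 4)), z ^ cs.length (x : W) =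
    (1 + z) ^ 2 * (1 + z + z ^ 2) := by
  rw [show ({0, 2, 3} : Set (Fin 4)) = {3, 2, 0} by ext i; simp; tauto]
  exact sum_three cs [3, 2, 0] (by simp) (by decide +kernel) (by decide +kernel) (by decide +kernel)
    (by
      rw [show ({3, 2, 0} : Set (Fin 4)) = {0, 2, 3} by ext i; simp; tauto]
      exact card_min cs (by decide +kernel) nd_D2 (min_D2 cs)) z

theorem card_ge_013 : 1152 ≤ (LL D1).length * Nat.card (WJ cs ({0, 1, 3} : Set (Fin 4))) := by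
  have h1 := card_le cs (Set.empty_subset ({0, 1, 3} : Set (Fin 4))) (LL3 0 1 3)
    (by
      have h1 : ∀ ω ∈ LL3 0 1 3, ∀ i ∈ ω, i ∈ [(0 : Fin 4), 1, 3] := by decide +kernel
      exact fun ω hω i hi => by simpa using h1 ω hω i hi) (by decide +kernel)
    (fun _ _ => isMinR_of cs fun _ hj => absurd hj (Set.notMem_empty _))
  rw [(cards cs).2.2.2.2] at h1
  rw [show (LL D1).length = 96 by decide +kernel]
  rw [show (LL3 0 1 3).length = 12 from rfl] at h1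
  omega

theorem card_ge_023 : 1152 ≤ (LL D2).length * Nat.card (WJ cs ({0, 2, 3} : Set (Fin 4))) := by
  have h1 := card_le cs (Set.empty_subset ({0, 2, 3} : Set (Fin 4))) (LL3 3 2 0)
    (by
      have h1 : ∀ ω ∈ LL3 3 2 0, ∀ i ∈ ω, i ∈ [(0 : Fin 4), 2, 3] := by decide +kernel
      exact fun ω hω i hi => by simpa using h1 ω hω i hi) (by decide +kernel)
    (fun _ _ => isMinR_of cs fun _ hj => absurd hj (Set.notMem_empty _))
  rw [(cards cs).2.2.2.2] at h1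
  rw [show (LL D2).length = 96 by decide +kernel]
  rw [show (LL3 3 2 0).length = 12 from rfl] at h1
  omega

theorem sum_dc013 {Φ : W → ℂ} {q r : ℂ} (hqr : q ≠ r)
    (hL : ∀ k ∈ ({0, 2, 3} : Set (Fin 4)), ∀ w, cs.length w < cs.length (cs.simple k * w) →
      Φ (cs.simple k * w) = r * Φ w)
    (hR : ∀ j ∈ ({0, 1, 3} : Set (Fin 4)), ∀ w, cs.length w < cs.length (w * cs.simple j) →
      Φ (w * cs.simple j) = q * Φ w) :
    ∑ᶠ w : W, Φ w = (1 + q) ^ 2 * (1 + q + q ^ 2) * ((1 + r) ^ 2 * (1 + r + r ^ 2)) *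
      (Φ (cs.wordProd [1, 2]) + Φ (cs.wordProd [1, 2, 3, 0, 1, 2]) + Φ (cs.wordProd [1, 2, 3, 1, 2, 0, 1, 2]) +
        Φ (cs.wordProd [1, 2, 0, 1, 2, 3, 2, 0, 1, 2]) +
        Φ (cs.wordProd [1, 2, 3, 1, 2, 0, 1, 2, 3, 1, 2, 0, 1, 2])) := by
  rw [sum_dc cs D1 red_D1 mem_D1 nd_D1 (min_D1 cs) (card_ge_013 cs) hL hR, sum_013]
  have z0 := phi_zero cs hqr hL hR (d := []) (j := 0) (k := 0) (by simp) (by simp) (by decide +kernel)
  have z1 := phi_zero cs hqr hL hR (d := [1, 2, 0, 1, 2]) (j := 1) (k := 0) (by simp) (by simp) (by decide +kernel)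
  have z2 := phi_zero cs hqr hL hR (d := [1, 2, 3, 1, 2]) (j := 3) (k := 2) (by simp) (by simp) (by decide +kernel)
  have z3 := phi_zero cs hqr hL hR (d := [1, 2, 0, 1, 2, 3, 0, 1, 2]) (j := 0) (k := 0) (by simp) (by simp)
    (by decide +kernel)
  have z4 := phi_zero cs hqr hL hR (d := [1, 2, 0, 1, 2, 3, 2, 1, 2]) (j := 1) (k := 0) (by simp) (by simp)
    (by decide +kernel)
  have z5 := phi_zero cs hqr hL hR (d := [1, 2, 0, 1, 2, 3, 2, 1, 2, 0, 1, 2]) (j := 0) (k := 0) (by simp) (by simp)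
    (by decide +kernel)
  have z6 := phi_zero cs hqr hL hR (d := [1, 2, 3, 1, 2, 0, 1, 2, 3, 0, 1, 2]) (j := 3) (k := 3) (by simp) (by simp)
    (by decide +kernel)
  have z7 := phi_zero cs hqr hL hR (d := [1, 2, 0, 1, 2, 3, 2, 1, 2, 0, 1, 2, 3, 1, 2, 0, 1, 2]) (j := 1) (k := 0)
    (by simp) (by simp) (by decide +kernel)
  simp only [D1, List.map_cons, List.map_nil, List.sum_cons, List.sum_nil, List.length_cons, List.length_nil,
    z0, z1, z2, z3, z4, z5, z6, z7]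
  ring

theorem sum_dc023 {Φ : W → ℂ} {q r : ℂ} (hqr : q ≠ r)
    (hL : ∀ k ∈ ({0, 1, 3} : Set (Fin 4)), ∀ w, cs.length w < cs.length (cs.simple k * w) →
      Φ (cs.simple k * w) = r * Φ w)
    (hR : ∀ j ∈ ({0, 2, 3} : Set (Fin 4)), ∀ w, cs.length w < cs.length (w * cs.simple j) →
      Φ (w * cs.simple j) = q * Φ w) :
    ∑ᶠ w : W, Φ w = (1 + q) ^ 2 * (1 + q + q ^ 2) * ((1 + r) ^ 2 * (1 + r + r ^ 2)) *
      (Φ (cs.wordProd [2, 1]) + Φ (cs.wordProd [2, 3, 1, 2, 0, 1]) + Φ (cs.wordProd [2, 1, 2, 3, 0, 1, 2, 1]) +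
        Φ (cs.wordProd [2, 1, 2, 3, 2, 0, 1, 2, 0, 1]) +
        Φ (cs.wordProd [2, 3, 1, 2, 0, 1, 2, 3, 2, 0, 1, 2, 0, 1])) := by
  rw [sum_dc cs D2 red_D2 mem_D2 nd_D2 (min_D2 cs) (card_ge_023 cs) hL hR, sum_023]
  have z0 := phi_zero cs hqr hL hR (d := []) (j := 0) (k := 0) (by simp) (by simp) (by decide +kernel)
  have z1 := phi_zero cs hqr hL hR (d := [2, 1, 2, 0, 1]) (j := 0) (k := 1) (by simp) (by simp) (by decide +kernel)
  have z2 := phi_zero cs hqr hL hR (d := [2, 3, 1, 2, 1]) (j := 2) (k := 3) (by simp) (by simp) (by decide +kernel)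
  have z3 := phi_zero cs hqr hL hR (d := [2, 1, 2, 3, 2, 1, 2, 0, 1]) (j := 0) (k := 1) (by simp) (by simp)
    (by decide +kernel)
  have z4 := phi_zero cs hqr hL hR (d := [2, 3, 1, 2, 0, 1, 2, 0, 1]) (j := 0) (k := 0) (by simp) (by simp)
    (by decide +kernel)
  have z5 := phi_zero cs hqr hL hR (d := [2, 1, 2, 0, 1, 2, 3, 2, 1, 2, 0, 1]) (j := 0) (k := 0) (by simp) (by simp)
    (by decide +kernel)
  have z6 := phi_zero cs hqr hL hR (d := [2, 3, 1, 2, 0, 1, 2, 3, 0, 1, 2, 1]) (j := 3) (k := 3) (by simp) (by simp)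
    (by decide +kernel)
  have z7 := phi_zero cs hqr hL hR (d := [2, 1, 2, 3, 2, 1, 2, 0, 1, 2, 3, 1, 2, 0, 1, 2, 0, 1]) (j := 0) (k := 1)
    (by simp) (by simp) (by decide +kernel)
  simp only [D2, List.map_cons, List.map_nil, List.sum_cons, List.sum_nil, List.length_cons, List.length_nil,
    z0, z1, z2, z3, z4, z5, z6, z7]
  ring

end

end Cfsg.Agent.H589.FF.WF
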