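import Cfsg.Agent.Tits.Roots
import Cfsg.Agent.Tits.Exchange

/-!
# S4842: the Weyl group of type `F₄`, computations on the root lattice (helper589)

* `WF.rep_vec` : the simple reflections on vectors;
* `WF.card_cent_le` : at most twelve elements commute with a Coxeter element of the nodes `0, 1, 3` (`0, 2, 3`);
* `WF.conj_ne` : these elements and `1` are pairwise not conjugate;
* `WF.mn_WJ` : the mean value of a function over `W_K` as the sum over an explicit list of words.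
-/

set_option autoImplicit false
set_option linter.unusedSectionVars false

namespace Cfsg.Agent.H589.FF.WF

open CoxeterSystem Cfsg.Agent.ChevalleyStructure.CoxeterGeom Cfsg.Agent.Tits.Roots Cfsg.Agent.Tits.Core
  Cfsg.Agent.Tits.Exchange

/-- the Cartan matrix -/
def AF : Fin 4 → Fin 4 → ℤ := !![2, -1, 0, 0; -1, 2, -1, 0; 0, -2, 2, -1; 0, 0, -1, 2]

theorem isCartan : IsCartan CoxeterMatrix.F₄ AF := by
  constructor
  · decide
  · intro i j hij
    fin_cases i <;> fin_cases j <;> simp [CoxeterMatrix.F₄, AF] at hij ⊢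

/-- vectors of the root lattice -/
abbrev T4 := ℤ × ℤ × ℤ × ℤ

def vec (t : T4) : Fin 4 → ℤ := ![t.1, t.2.1, t.2.2.1, t.2.2.2]

theorem vec_injective : Function.Injective vec := by
  rintro ⟨a, b, c, d⟩ ⟨a', b', c', d'⟩ e
  have h0 := congrFun e 0
  have h1 := congrFun e 1
  have h2 := congrFun e 2
  have h3 := congrFun e 3
  simp only [vec, Matrix.cons_val_zero, Matrix.cons_val_one, Matrix.cons_val] at h0 h1 h2 h3
  rw [h0, h1, h2, h3]

/-- the simple reflections -/
def rf (i : Fin 4) (t : T4) : T4 :=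
  match i with
  | 0 => (t.2.1 - t.1, t.2.1, t.2.2.1, t.2.2.2)
  | 1 => (t.1, t.1 + t.2.2.1 - t.2.1, t.2.2.1, t.2.2.2)
  | 2 => (t.1, t.2.1, 2 * t.2.1 + t.2.2.2 - t.2.2.1, t.2.2.2)
  | 3 => (t.1, t.2.1, t.2.2.1, t.2.2.1 - t.2.2.2)

/-- the action of a word -/
def act (ω : List (Fin 4)) (t : T4) : T4 := ω.foldr rf t

section

variable {W : Type*} [Group W] (cs : CoxeterSystem CoxeterMatrix.F₄ W)

theorem rep_simple_vec (i : Fin 4) (t : T4) : rep cs isCartan (cs.simple i) (vec t) = vec (rf i t) := by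
  obtain ⟨a, b, c, d⟩ := t
  rw [rep_simple_eq]
  funext j
  fin_cases i <;> fin_cases j <;>
    simp [pairing, vec, rf, AF, sr, Fin.sum_univ_four] <;> ring

theorem rep_vec (ω : List (Fin 4)) (t : T4) : rep cs isCartan (cs.wordProd ω) (vec t) = vec (act ω t) := by
  induction ω with
  | nil => rw [cs.wordProd_nil, map_one, Module.End.one_apply]; rfl
  | cons i ω ih => rw [cs.wordProd_cons, rep_mul_apply, ih, rep_simple_vec]; rfl

/-- the images of the basis -/
def code (ω : List (Fin 4)) : List T4 := [act ω (1, 0, 0, 0), act ω (0, 1, 0, 0), act ω (0, 0, 1, 0), act ω (0, 0, 0, 1)]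

theorem eq_of_four {x y : W} (h0 : rep cs isCartan x (vec (1, 0, 0, 0)) = rep cs isCartan y (vec (1, 0, 0, 0)))
    (h1 : rep cs isCartan x (vec (0, 1, 0, 0)) = rep cs isCartan y (vec (0, 1, 0, 0)))
    (h2 : rep cs isCartan x (vec (0, 0, 1, 0)) = rep cs isCartan y (vec (0, 0, 1, 0)))
    (h3 : rep cs isCartan x (vec (0, 0, 0, 1)) = rep cs isCartan y (vec (0, 0, 0, 1))) : x = y := by
  apply rep_injective cs isCartan
  refine LinearMap.ext fun v => ?_
  have hv : v = v 0 • vec (1, 0, 0, 0) + v 1 • vec (0, 1, 0, 0) + v 2 • vec (0, 0, 1, 0) + v 3 • vec (0, 0, 0, 1) := by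
    funext j
    fin_cases j <;> simp [vec]
  rw [hv]
  simp only [map_add, map_smul, h0, h1, h2, h3]

theorem eq_of_code {ω ω' : List (Fin 4)} (h : code ω = code ω') : cs.wordProd ω = cs.wordProd ω' := by
  simp only [code, List.cons.injEq, and_true] at h
  obtain ⟨h0, h1, h2, h3⟩ := h
  apply eq_of_four cs <;> rw [rep_vec, rep_vec]
  · rw [h0]
  · rw [h1]
  · rw [h2]
  · rw [h3]

theorem code_of_eq {ω ω' : List (Fin 4)} (h : cs.wordProd ω = cs.wordProd ω') : code ω = code ω' := by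
  have key : ∀ t, act ω t = act ω' t := fun t => vec_injective (by rw [← rep_vec cs, ← rep_vec cs, h])
  simp only [code, key]

/-- the invariant form -/
def bf (x y : T4) : ℤ := 4 * x.1 * y.1 + 4 * x.2.1 * y.2.1 + 2 * x.2.2.1 * y.2.2.1 + 2 * x.2.2.2 * y.2.2.2 -
  2 * (x.1 * y.2.1 + x.2.1 * y.1) - 2 * (x.2.1 * y.2.2.1 + x.2.2.1 * y.2.1) - (x.2.2.1 * y.2.2.2 + x.2.2.2 * y.2.2.1)

theorem bf_rf (i : Fin 4) (x y : T4) : bf (rf i x) (rf i y) = bf x y := by
  obtain ⟨a, b, c, d⟩ := x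
  obtain ⟨a', b', c', d'⟩ := y
  fin_cases i <;> simp only [rf, bf] <;> ring

theorem bf_act (ω : List (Fin 4)) (x y : T4) : bf (act ω x) (act ω y) = bf x y := by
  induction ω with
  | nil => rfl
  | cons i ω ih => rw [← ih]; exact bf_rf i _ _

/-- the roots -/
def roots : List T4 := [(2, 3, 4, 2), (1, 3, 4, 2), (1, 2, 4, 2), (1, 2, 3, 2), (1, 2, 3, 1), (1, 2, 2, 2),
  (1, 2, 2, 1), (1, 2, 2, 0), (1, 1, 2, 2), (1, 1, 2, 1), (1, 1, 2, 0), (1, 1, 1, 1), (1, 1, 1, 0), (1, 1, 0, 0),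
  (1, 0, 0, 0), (0, 1, 2, 2), (0, 1, 2, 1), (0, 1, 2, 0), (0, 1, 1, 1), (0, 1, 1, 0), (0, 1, 0, 0), (0, 0, 1, 1),
  (0, 0, 1, 0), (0, 0, 0, 1), (0, 0, 0, -1), (0, 0, -1, 0), (0, 0, -1, -1), (0, -1, 0, 0), (0, -1, -1, 0),
  (0, -1, -1, -1), (0, -1, -2, 0), (0, -1, -2, -1), (0, -1, -2, -2), (-1, 0, 0, 0), (-1, -1, 0, 0), (-1, -1, -1, 0),
  (-1, -1, -1, -1), (-1, -1, -2, 0), (-1, -1, -2, -1), (-1, -1, -2, -2), (-1, -2, -2, 0), (-1, -2, -2, -1),
  (-1, -2, -2, -2), (-1, -2, -3, -1), (-1, -2, -3, -2), (-1, -2, -4, -2), (-1, -3, -4, -2), (-2, -3, -4, -2)]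

theorem roots_closed : ∀ t ∈ roots, ∀ i, rf i t ∈ roots := by decide +kernel

theorem act_mem (ω : List (Fin 4)) {t : T4} (ht : t ∈ roots) : act ω t ∈ roots := by
  induction ω with
  | nil => exact ht
  | cons i ω ih => exact roots_closed _ ih i

/-- the twelve roots in the same position as `β` -/
def S1 : List T4 := [(-1, -1, -1, -1), (-1, -1, -1, 0), (0, -1, -1, -1), (0, -1, -1, 0), (0, 0, -1, -1),
  (0, 0, -1, 0), (0, 0, 1, 0), (0, 0, 1, 1), (0, 1, 1, 0), (0, 1, 1, 1), (1, 1, 1, 0), (1, 1, 1, 1)]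

def S2 : List T4 := [(-1, -1, -2, -1), (-1, -1, -1, -1), (-1, -1, -1, 0), (0, -1, -2, -1), (0, -1, -1, -1),
  (0, -1, -1, 0), (0, 1, 1, 0), (0, 1, 1, 1), (0, 1, 2, 1), (1, 1, 1, 0), (1, 1, 1, 1), (1, 1, 2, 1)]

def w1 : List (Fin 4) := [0, 1, 3]

def w2 : List (Fin 4) := [0, 2, 3]

def be : T4 := (1, 1, 1, 1)

theorem sel1 : ∀ t ∈ roots, bf t t = bf be be → bf t (act w1 t) = bf be (act w1 be) →
    bf t (act w1 (act w1 t)) = bf be (act w1 (act w1 be)) → t ∈ S1 := by decide +kernel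

theorem sel2 : ∀ t ∈ roots, bf t t = bf be be → bf t (act w2 t) = bf be (act w2 be) →
    bf t (act w2 (act w2 t)) = bf be (act w2 (act w2 be)) → t ∈ S2 := by decide +kernel

theorem card_cent_le (w : List (Fin 4)) (S : List T4) (hS : S.length ≤ 12)
    (sel : ∀ t ∈ roots, bf t t = bf be be → bf t (act w t) = bf be (act w be) →
      bf t (act w (act w t)) = bf be (act w (act w be)) → t ∈ S)
    (gen : ∀ x y : W, rep cs isCartan x (vec be) = rep cs isCartan y (vec be) →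
      rep cs isCartan x (vec (act w be)) = rep cs isCartan y (vec (act w be)) →
      rep cs isCartan x (vec (act w (act w be))) = rep cs isCartan y (vec (act w (act w be))) →
      rep cs isCartan x (vec (act w (act w (act w be)))) = rep cs isCartan y (vec (act w (act w (act w be)))) → x = y) :
    Nat.card {x : W // x * cs.wordProd w * x⁻¹ = cs.wordProd w} ≤ 12 := by
  classical
  have hcomm : ∀ x : W, x * cs.wordProd w * x⁻¹ = cs.wordProd w → ∀ t,
      rep cs isCartan x (vec (act w t)) = rep cs isCartan (cs.wordProd w) (rep cs isCartan x (vec t)) := by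
    intro x hx t
    rw [← rep_vec cs, ← rep_mul_apply, ← rep_mul_apply, mul_inv_eq_iff_eq_mul.1 hx]
  have hword : ∀ x : W, ∃ ω, x = cs.wordProd ω := fun x => by
    obtain ⟨ω, h⟩ := cs.wordProd_surjective x
    exact ⟨ω, h.symm⟩
  have hmem : ∀ x : W, x * cs.wordProd w * x⁻¹ = cs.wordProd w → ∃ t ∈ S, rep cs isCartan x (vec be) = vec t := by
    intro x hx
    have hc := hcomm x hx
    obtain ⟨ω, rfl⟩ := hword x
    have hc' : ∀ t, act ω (act w t) = act w (act ω t) := fun t => vec_injective (by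
      rw [← rep_vec cs, hc, rep_vec, rep_vec])
    refine ⟨act ω be, sel _ (act_mem ω (by decide)) (bf_act _ _ _) ?_ ?_, rep_vec cs ω be⟩
    · rw [← hc', bf_act]
    · rw [← hc', ← hc', bf_act]
  have hinj : Function.Injective (fun x : {x : W // x * cs.wordProd w * x⁻¹ = cs.wordProd w} =>
      (⟨rep cs isCartan x (vec be), by
        obtain ⟨t, ht, e⟩ := hmem x x.2
        rw [e]
        exact List.mem_toFinset.2 (List.mem_map_of_mem ht)⟩ : ((S.map vec).toFinset : Finset (Fin 4 → ℤ)))) := by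
    intro x y e
    have h0 : rep cs isCartan (x : W) (vec be) = rep cs isCartan (y : W) (vec be) := congrArg Subtype.val e
    refine Subtype.ext (gen _ _ h0 ?_ ?_ ?_)
    · rw [hcomm _ x.2, hcomm _ y.2, h0]
    · rw [hcomm _ x.2, hcomm _ y.2, hcomm _ x.2, hcomm _ y.2, h0]
    · rw [hcomm _ x.2, hcomm _ y.2, hcomm _ x.2, hcomm _ y.2, hcomm _ x.2, hcomm _ y.2, h0]
  have h1 := Nat.card_le_card_of_injective _ hinj
  refine h1.trans ?_
  rw [Nat.card_eq_fintype_card, Fintype.card_coe]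
  exact (List.toFinset_card_le _).trans (by rw [List.length_map]; exact hS)

theorem card_cent1 : Nat.card {x : W // x * cs.wordProd w1 * x⁻¹ = cs.wordProd w1} ≤ 12 := by
  refine card_cent_le cs w1 S1 (by decide) sel1 fun x y h0 h1 h2 h3 => ?_
  have e0 : vec (1, 0, 0, 0) = (0 : ℤ) • vec be + (-1 : ℤ) • vec (act w1 be) + (0 : ℤ) • vec (act w1 (act w1 be)) +
      (1 : ℤ) • vec (act w1 (act w1 (act w1 be))) := by decide +kernel
  have e1 : vec (0, 1, 0, 0) = (1 : ℤ) • vec be + (1 : ℤ) • vec (act w1 be) + (-1 : ℤ) • vec (act w1 (act w1 be)) +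
      (-1 : ℤ) • vec (act w1 (act w1 (act w1 be))) := by decide +kernel
  have e2 : vec (0, 0, 1, 0) = (-1 : ℤ) • vec be + (0 : ℤ) • vec (act w1 be) + (1 : ℤ) • vec (act w1 (act w1 be)) +
      (1 : ℤ) • vec (act w1 (act w1 (act w1 be))) := by decide +kernel
  have e3 : vec (0, 0, 0, 1) = (1 : ℤ) • vec be + (0 : ℤ) • vec (act w1 be) + (0 : ℤ) • vec (act w1 (act w1 be)) +
      (-1 : ℤ) • vec (act w1 (act w1 (act w1 be))) := by decide +kernel
  apply eq_of_four cs
  · rw [e0]; simp only [map_add, map_smul, h0, h1, h2, h3]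
  · rw [e1]; simp only [map_add, map_smul, h0, h1, h2, h3]
  · rw [e2]; simp only [map_add, map_smul, h0, h1, h2, h3]
  · rw [e3]; simp only [map_add, map_smul, h0, h1, h2, h3]

theorem card_cent2 : Nat.card {x : W // x * cs.wordProd w2 * x⁻¹ = cs.wordProd w2} ≤ 12 := by
  refine card_cent_le cs w2 S2 (by decide) sel2 fun x y h0 h1 h2 h3 => ?_
  have e0 : vec (1, 0, 0, 0) = (1 : ℤ) • vec be + (0 : ℤ) • vec (act w2 be) + (0 : ℤ) • vec (act w2 (act w2 be)) +
      (-1 : ℤ) • vec (act w2 (act w2 (act w2 be))) := by decide +kernel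
  have e1 : vec (0, 1, 0, 0) = (1 : ℤ) • vec be + (1 : ℤ) • vec (act w2 be) + (-1 : ℤ) • vec (act w2 (act w2 be)) +
      (0 : ℤ) • vec (act w2 (act w2 (act w2 be))) := by decide +kernel
  have e2 : vec (0, 0, 1, 0) = (-1 : ℤ) • vec be + (0 : ℤ) • vec (act w2 be) + (1 : ℤ) • vec (act w2 (act w2 be)) +
      (0 : ℤ) • vec (act w2 (act w2 (act w2 be))) := by decide +kernel
  have e3 : vec (0, 0, 0, 1) = (0 : ℤ) • vec be + (-1 : ℤ) • vec (act w2 be) + (0 : ℤ) • vec (act w2 (act w2 be)) +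
      (1 : ℤ) • vec (act w2 (act w2 (act w2 be))) := by decide +kernel
  apply eq_of_four cs
  · rw [e0]; simp only [map_add, map_smul, h0, h1, h2, h3]
  · rw [e1]; simp only [map_add, map_smul, h0, h1, h2, h3]
  · rw [e2]; simp only [map_add, map_smul, h0, h1, h2, h3]
  · rw [e3]; simp only [map_add, map_smul, h0, h1, h2, h3]

/-! ### Parity -/

/-- the sign on the nodes `0, 1` (`b = true`) or `2, 3` (`b = false`) -/
noncomputable def sg (b : Bool) : W →* ℤˣ :=
  cs.lift ⟨fun i => if (decide (i.val ≤ 1) = b) then -1 else 1, by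
    intro i j
    fin_cases i <;> fin_cases j <;> cases b <;> simp [CoxeterMatrix.F₄] <;> rfl⟩

theorem sg_simple (b : Bool) (i : Fin 4) : sg cs b (cs.simple i) = if (decide (i.val ≤ 1) = b) then -1 else 1 :=
  cs.lift_apply_simple _ i

theorem sg_w1 : sg cs false (cs.wordProd w1) = -1 := by
  simp only [w1, cs.wordProd_cons, cs.wordProd_nil, map_mul, map_one, sg_simple]
  decide

theorem sg_w2 : sg cs false (cs.wordProd w2) = 1 := by
  simp only [w2, cs.wordProd_cons, cs.wordProd_nil, map_mul, map_one, sg_simple]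
  decide

theorem sg_w2' : sg cs true (cs.wordProd w2) = -1 := by
  simp only [w2, cs.wordProd_cons, cs.wordProd_nil, map_mul, map_one, sg_simple]
  decide

theorem card_zero {b : Bool} {x y : W} (h : sg cs b x ≠ sg cs b y) : Nat.card {a : W // a * x * a⁻¹ = y} = 0 := by
  have : IsEmpty {a : W // a * x * a⁻¹ = y} := ⟨fun a => h (by
    rw [← a.2, map_mul, map_mul, map_inv, mul_comm (sg cs b (a : W)), mul_inv_cancel_right])⟩
  exact Nat.card_of_isEmpty

theorem card_12 : Nat.card {a : W // a * cs.wordProd w1 * a⁻¹ = cs.wordProd w2} = 0 :=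
  card_zero cs (b := false) (by rw [sg_w1, sg_w2]; decide)

theorem card_10 : Nat.card {a : W // a * cs.wordProd w1 * a⁻¹ = 1} = 0 :=
  card_zero cs (b := false) (by rw [sg_w1, map_one]; decide)

theorem card_20 : Nat.card {a : W // a * cs.wordProd w2 * a⁻¹ = 1} = 0 :=
  card_zero cs (b := true) (by rw [sg_w2', map_one]; decide)

/-! ### Mean values -/

/-- the mean value of a function over a subgroup -/
noncomputable def mn {G : Type*} [Group G] (H : Subgroup G) (χ : G → ℂ) : ℂ := (Nat.card H : ℂ)⁻¹ * ∑ᶠ h : H, χ h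

theorem mn_WJ [Finite W] {K : Set (Fin 4)} (L : List (List (Fin 4))) (hmem : ∀ ω ∈ L, ∀ i ∈ ω, i ∈ K)
    (hone : [] ∈ L) (hinj : (L.map code).Nodup) (hcl : ∀ ω ∈ L, ∀ i ∈ K, ∃ ω' ∈ L, code (i :: ω) = code ω')
    (ψ : W → ℂ) : mn (WJ cs K) ψ = (L.length : ℂ)⁻¹ * (L.map fun ω => ψ (cs.wordProd ω)).sum := by
  classical
  have := Fintype.ofFinite W
  have hnd : (L.map cs.wordProd).Nodup := by
    have h1 := List.Nodup.of_map _ hinj
    refine (List.nodup_map_iff_inj_on h1).2 ?_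
    intro ω hω ω' hω' e
    exact List.inj_on_of_nodup_map hinj hω hω' (code_of_eq cs e)
  have hset : ∀ x : W, x ∈ (L.map cs.wordProd).toFinset ↔ x ∈ WJ cs K := by
    intro x
    rw [List.mem_toFinset, List.mem_map]
    constructor
    · rintro ⟨ω, hω, rfl⟩
      exact wordProd_mem_WJ cs (hmem ω hω)
    · intro hx
      obtain ⟨ω, hω, rfl⟩ := exists_word_of_mem_WJ cs hx
      clear hx
      induction ω with
      | nil => exact ⟨[], hone, rfl⟩
      | cons i ω ih =>
        obtain ⟨ω', h1, h2⟩ := ih fun j hj => hω j (List.mem_cons_of_mem _ hj)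
        obtain ⟨ω'', h3, h4⟩ := hcl ω' h1 i (hω i List.mem_cons_self)
        refine ⟨ω'', h3, ?_⟩
        rw [← eq_of_code cs h4, cs.wordProd_cons, cs.wordProd_cons, h2]
  have hcard : Nat.card (WJ cs K) = L.length := by
    rw [Nat.card_eq_fintype_card, Fintype.card_of_subtype _ hset, List.toFinset_card_of_nodup hnd, List.length_map]
  rw [mn, hcard, finsum_eq_sum_of_fintype]
  congr 1
  rw [← Finset.sum_subtype _ hset ψ, List.sum_toFinset _ hnd, List.map_map]
  rfl

/-- the alternating combination belonging to the Coxeter element of the nodes `a - b`, `c` -/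
def mm3 {R : Type*} [CommRing R] (f : Set (Fin 4) → R) (a b c : Fin 4) : R :=
  2 * (f {c} - 3 * f {a, c} + 3 * f {a, b, c}) - (f ∅ - 3 * f {a} + 3 * f {a, b})

theorem mn_WJ' [Finite W] {K : Set (Fin 4)} (KL : List (Fin 4)) (hK : ∀ i, i ∈ K ↔ i ∈ KL)
    (L : List (List (Fin 4))) (hmem : ∀ ω ∈ L, ∀ i ∈ ω, i ∈ KL)
    (hone : [] ∈ L) (hinj : (L.map code).Nodup) (hcl : ∀ ω ∈ L, ∀ i ∈ KL, ∃ ω' ∈ L, code (i :: ω) = code ω')
    (ψ : W → ℂ) : mn (WJ cs K) ψ = (L.length : ℂ)⁻¹ * (L.map fun ω => ψ (cs.wordProd ω)).sum :=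
  mn_WJ cs L (fun ω hω i hi => (hK i).2 (hmem ω hω i hi)) hone hinj (fun ω hω i hi => hcl ω hω i ((hK i).1 hi)) ψ

/-- `W_{a, b, c}` -/
def LL3 (a b c : Fin 4) : List (List (Fin 4)) :=
  [[], [a], [b], [a, b], [b, a], [a, b, a], [c], [a, c], [b, c], [a, b, c], [b, a, c], [a, b, a, c]]

def LL2 (a b : Fin 4) : List (List (Fin 4)) := [[], [a], [b], [a, b], [b, a], [a, b, a]]

theorem conj_of_code {ψ : W → ℂ} (hψ : ∀ g h : W, ψ (h * g * h⁻¹) = ψ g) (g ω ω' : List (Fin 4))
    (h : code (g ++ ω ++ g.reverse) = code ω') : ψ (cs.wordProd ω') = ψ (cs.wordProd ω) := by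
  rw [← eq_of_code cs h, cs.wordProd_append, cs.wordProd_append, cs.wordProd_reverse, hψ]

theorem mm3_eq [Finite W] {ψ : W → ℂ} (hψ : ∀ g h : W, ψ (h * g * h⁻¹) = ψ g) (a b c : Fin 4)
    (d1 : ((LL3 a b c).map code).Nodup)
    (c1 : ∀ ω ∈ LL3 a b c, ∀ i ∈ [a, b, c], ∃ ω' ∈ LL3 a b c, code (i :: ω) = code ω')
    (d2 : ((LL2 a b).map code).Nodup)
    (c2 : ∀ ω ∈ LL2 a b, ∀ i ∈ [a, b], ∃ ω' ∈ LL2 a b, code (i :: ω) = code ω')
    (d3 : (([[], [a], [c], [a, c]] : List (List (Fin 4))).map code).Nodup)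
    (c3 : ∀ ω ∈ ([[], [a], [c], [a, c]] : List (List (Fin 4))), ∀ i ∈ [a, c],
      ∃ ω' ∈ ([[], [a], [c], [a, c]] : List (List (Fin 4))), code (i :: ω) = code ω')
    (d4 : (([[], [a]] : List (List (Fin 4))).map code).Nodup)
    (c4 : ∀ ω ∈ ([[], [a]] : List (List (Fin 4))), ∀ i ∈ [a],
      ∃ ω' ∈ ([[], [a]] : List (List (Fin 4))), code (i :: ω) = code ω')
    (d5 : (([[], [c]] : List (List (Fin 4))).map code).Nodup)
    (c5 : ∀ ω ∈ ([[], [c]] : List (List (Fin 4))), ∀ i ∈ [c],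
      ∃ ω' ∈ ([[], [c]] : List (List (Fin 4))), code (i :: ω) = code ω')
    (e1 : code ([a, b] ++ [a] ++ [b, a]) = code [b])
    (e2 : code ([b] ++ [a] ++ [b]) = code [a, b, a])
    (e3 : code ([a] ++ [a, b] ++ [a]) = code [b, a])
    (e4 : code ([a, b] ++ [a, c] ++ [b, a]) = code [b, c])
    (e5 : code ([b] ++ [a, c] ++ [b]) = code [a, b, a, c])
    (e6 : code ([a] ++ [a, b, c] ++ [a]) = code [b, a, c]) :
    mm3 (fun K => mn (WJ cs K) ψ) a b c = ψ (cs.wordProd [a, b, c]) := by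
  have h1 := mn_WJ' cs (K := {a, b, c}) [a, b, c] (by simp) (LL3 a b c) (by simp [LL3]) (by simp [LL3]) d1 c1 ψ
  have h2 := mn_WJ' cs (K := {a, b}) [a, b] (by simp) (LL2 a b) (by simp [LL2]) (by simp [LL2]) d2 c2 ψ
  have h3 := mn_WJ' cs (K := {a, c}) [a, c] (by simp) [[], [a], [c], [a, c]] (by simp) (by simp) d3 c3 ψ
  have h4 := mn_WJ' cs (K := {a}) [a] (by simp) [[], [a]] (by simp) (by simp) d4 c4 ψ
  have h5 := mn_WJ' cs (K := {c}) [c] (by simp) [[], [c]] (by simp) (by simp) d5 c5 ψ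
  have h6 := mn_WJ' cs (K := ∅) [] (by simp) [[]] (by simp) (by simp) (by simp) (by simp) ψ
  have g1 := conj_of_code cs hψ [a, b] [a] [b] e1
  have g2 := conj_of_code cs hψ [b] [a] [a, b, a] e2
  have g3 := conj_of_code cs hψ [a] [a, b] [b, a] e3
  have g4 := conj_of_code cs hψ [a, b] [a, c] [b, c] e4
  have g5 := conj_of_code cs hψ [b] [a, c] [a, b, a, c] e5
  have g6 := conj_of_code cs hψ [a] [a, b, c] [b, a, c] e6
  rw [mm3, h1, h2, h3, h4, h5, h6]
  simp only [LL3, LL2, List.map_cons, List.map_nil, List.sum_cons, List.sum_nil, List.length_cons, List.length_nil,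
    g1, g2, g3, g4, g5, g6]
  push_cast
  ring

theorem mm3_w1 [Finite W] {ψ : W → ℂ} (hψ : ∀ g h : W, ψ (h * g * h⁻¹) = ψ g) :
    mm3 (fun K => mn (WJ cs K) ψ) 0 1 3 = ψ (cs.wordProd w1) :=
  mm3_eq cs hψ 0 1 3 (by decide +kernel) (by decide +kernel) (by decide +kernel) (by decide +kernel)
    (by decide +kernel) (by decide +kernel) (by decide +kernel) (by decide +kernel) (by decide +kernel)
    (by decide +kernel) (by decide +kernel) (by decide +kernel) (by decide +kernel) (by decide +kernel)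
    (by decide +kernel) (by decide +kernel)

theorem mm3_w2 [Finite W] {ψ : W → ℂ} (hψ : ∀ g h : W, ψ (h * g * h⁻¹) = ψ g) :
    mm3 (fun K => mn (WJ cs K) ψ) 3 2 0 = ψ (cs.wordProd w2) := by
  rw [mm3_eq cs hψ 3 2 0 (by decide +kernel) (by decide +kernel) (by decide +kernel) (by decide +kernel)
    (by decide +kernel) (by decide +kernel) (by decide +kernel) (by decide +kernel) (by decide +kernel)
    (by decide +kernel) (by decide +kernel) (by decide +kernel) (by decide +kernel) (by decide +kernel)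
    (by decide +kernel) (by decide +kernel)]
  exact conj_of_code cs hψ [3] w2 [3, 2, 0] (by decide +kernel)

end

end Cfsg.Agent.H589.FF.WF
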