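import Cfsg.Agent.H139.DoubleCoset
import Cfsg.Agent.H589.FF.Lift
import Cfsg.Agent.H589.FF.WFour
import Cfsg.Agent.S0848

/-!
# S4842: the inner products of the permutation characters on the cosets of the parabolic subgroups (helper589)

* `mn_eq` : the mean value of a character over `H` is the dimension of the space of `H`-invariants;
* `classInner_fpc` : it is the inner product with the permutation character on the cosets of `H`;
* `inner_rgd` : the inner products for `P_K`, `P_L` are those for `W_K`, `W_L`;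
* `transfer` : sums over the irreducible characters of `Y` as sums over those of `W`.
-/

set_option autoImplicit false
set_option linter.unusedSectionVars false

open Cfsg
open scoped ComplexConjugate

namespace Cfsg.Agent.H589.FF

open Cfsg.Agent.Characters.Core Cfsg.Agent.H985.VZ WF Module

universe u

section Abs

variable {G : Type u} [Group G]

theorem mn_eq [Finite G] {V : Type*} [AddCommGroup V] [Module ℂ V] [FiniteDimensional ℂ V]
    (ρ : Representation ℂ G V) (H : Subgroup G) : mn H ρ.character = finrank ℂ (fx ρ H) := by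
  classical
  have := Fintype.ofFinite H
  have h1 := trace_el_eq ρ H 1
  rw [eig_one] at h1
  rw [h1, mn, finsum_eq_sum_of_fintype]
  congr 1
  refine Finset.sum_congr rfl fun h _ => ?_
  rw [MonoidHom.one_apply, inv_one, Units.val_one, one_mul]

theorem mn_nat [Finite G] {χ : G → ℂ} (hχ : IsIrrCharacter G χ) (H : Subgroup G) : ∃ k : ℕ, mn H χ = k := by
  obtain ⟨n, ρ, hρ, rfl⟩ := hχ
  exact ⟨_, mn_eq ρ H⟩

theorem fpc_conj (H : Subgroup G) (g : G) : conj (fixedPointCharacter H g) = fixedPointCharacter H g := by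
  rw [fixedPointCharacter, Complex.conj_natCast]

/-- Frobenius reciprocity for the permutation character -/
theorem classInner_fpc' [Fintype G] (H : Subgroup G) {χ : G → ℂ} (hcl : IsClassFunction G χ) :
    classInner χ (fixedPointCharacter H) = mn H χ := by
  classical
  have hQ : Fintype (G ⧸ H) := Fintype.ofFinite _
  have := Fintype.ofFinite H
  rw [classInner_def]
  have h1 : ∀ g : G, χ g * conj (fixedPointCharacter H g) = ∑ x : G ⧸ H, if g • x = x then χ g else 0 := by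
    intro g
    rw [fpc_conj, ← Finset.sum_filter, Finset.sum_const, nsmul_eq_mul, mul_comm]
    congr 1
    unfold fixedPointCharacter
    rw [Nat.card_eq_fintype_card]
    norm_cast
    exact Fintype.card_subtype _
  have h2 : ∀ x : G ⧸ H, ∑ g : G, (if g • x = x then χ g else 0) = ∑ h : H, χ h := by
    intro x
    induction x using QuotientGroup.induction_on with
    | _ a =>
    rw [← Finset.sum_filter]
    symm
    refine Finset.sum_bij (fun h _ => a * (h : G) * a⁻¹) ?_ ?_ ?_ ?_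
    · intro h _
      rw [Finset.mem_filter]
      refine ⟨Finset.mem_univ _, ?_⟩
      show (QuotientGroup.mk (a * (h : G) * a⁻¹ * a) : G ⧸ H) = QuotientGroup.mk a
      rw [QuotientGroup.eq]
      have e : (a * (h : G) * a⁻¹ * a)⁻¹ * a = (h : G)⁻¹ := by group
      rw [e]
      exact inv_mem h.2
    · intro h _ h' _ e
      exact Subtype.ext (mul_left_cancel (mul_right_cancel e))
    · intro g hg
      have h3 : (QuotientGroup.mk (g * a) : G ⧸ H) = QuotientGroup.mk a := (Finset.mem_filter.1 hg).2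
      rw [QuotientGroup.eq] at h3
      refine ⟨⟨a⁻¹ * g * a, ?_⟩, Finset.mem_univ _, by group⟩
      have e : a⁻¹ * g * a = ((g * a)⁻¹ * a)⁻¹ := by group
      rw [e]
      exact inv_mem h3
    · intro h _
      rw [hcl (h : G) a]
  rw [Finset.sum_congr rfl fun g _ => h1 g, Finset.sum_comm, Finset.sum_congr rfl fun x _ => h2 x, Finset.sum_const,
    Finset.card_univ, nsmul_eq_mul, mn, finsum_eq_sum_of_fintype, ← mul_assoc]
  congr 1
  have h3 := H.card_mul_index
  have hG : (Nat.card G : ℂ) ≠ 0 := by exact_mod_cast Nat.card_pos.ne'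
  have hH : (Nat.card H : ℂ) ≠ 0 := by exact_mod_cast Nat.card_pos.ne'
  have h4 : (Nat.card G : ℂ) = Nat.card H * (Fintype.card (G ⧸ H) : ℂ) := by
    rw [← h3, Subgroup.index_eq_card, Nat.card_eq_fintype_card (α := G ⧸ H)]
    push_cast
    rfl
  have hQ0 : (Fintype.card (G ⧸ H) : ℂ) ≠ 0 := fun h => hG (by rw [h4, h, mul_zero])
  rw [h4]
  field_simp

theorem isClassFunction_fpc (H : Subgroup G) : IsClassFunction G (fixedPointCharacter H) := by
  intro g a
  unfold fixedPointCharacter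
  congr 1
  refine Nat.card_congr ⟨fun x => ⟨a⁻¹ • x.1, ?_⟩, fun x => ⟨a • x.1, ?_⟩, fun x => ?_, fun x => ?_⟩
  · have h := x.2
    rw [MulAction.mem_fixedBy] at h ⊢
    rw [← mul_smul] at *
    conv_rhs => rw [← h]
    rw [← mul_smul]
    congr 1
    group
  · have h := x.2
    rw [MulAction.mem_fixedBy] at h ⊢
    rw [← mul_smul, inv_mul_cancel_right, mul_smul, h]
  · exact Subtype.ext (smul_inv_smul _ _)
  · exact Subtype.ext (inv_smul_smul _ _)

theorem classInner_fpc [Fintype G] (H : Subgroup G) {χ : G → ℂ} (hχ : IsIrrCharacter G χ) :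
    classInner (fixedPointCharacter H) χ = mn H χ := by
  rw [← classInner_conj_symm, classInner_fpc' H (isIrr_isClassFunction hχ)]
  obtain ⟨k, hk⟩ := mn_nat hχ H
  rw [hk, Complex.conj_natCast]

theorem sum_mn [Fintype G] [Fintype (IrrCharacter G)] {ι ι' : Type*} [Fintype ι] [Fintype ι'] (c : ι → ℂ)
    (P : ι → Subgroup G) (c' : ι' → ℂ) (P' : ι' → Subgroup G) :
    ∑ χ : IrrCharacter G, (∑ i, c i * mn (P i) χ) * (∑ j, c' j * mn (P' j) χ) =
      ∑ i, ∑ j, c i * c' j * classInner (fixedPointCharacter (P i)) (fixedPointCharacter (P' j)) := by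
  have h1 : ∀ i j, classInner (fixedPointCharacter (P i)) (fixedPointCharacter (P' j)) =
      ∑ χ : IrrCharacter G, mn (P i) χ * mn (P' j) χ := by
    intro i j
    rw [classInner_eq_sum (isClassFunction_fpc _) (isClassFunction_fpc _)]
    refine Finset.sum_congr rfl fun χ _ => ?_
    rw [classInner_fpc _ χ.2, classInner_fpc _ χ.2]
    obtain ⟨k, hk⟩ := mn_nat χ.2 (P' j)
    rw [hk, Complex.conj_natCast]
  have h2 : ∀ χ : IrrCharacter G, (∑ i, c i * mn (P i) χ) * (∑ j, c' j * mn (P' j) χ) =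
      ∑ i, ∑ j, c i * c' j * (mn (P i) χ * mn (P' j) χ) := by
    intro χ
    rw [Finset.sum_mul_sum]
    exact Finset.sum_congr rfl fun i _ => Finset.sum_congr rfl fun j _ => by ring
  rw [Finset.sum_congr rfl fun χ _ => h2 χ, Finset.sum_comm]
  refine Finset.sum_congr rfl fun i _ => ?_
  rw [Finset.sum_comm]
  refine Finset.sum_congr rfl fun j _ => ?_
  rw [h1, Finset.mul_sum]

end Abs

section Rgd

open CoxeterSystem Cfsg.Agent.ChevalleyStructure.CoxeterGeom Cfsg.Agent.Tits.Roots Cfsg.Agent.Tits.Core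
  Cfsg.Agent.Tits.Exchange Cfsg.Agent.Nodes.Reps Cfsg.Agent.Nodes.BNOf Cfsg.Agent.Nodes.Bruhat
  Cfsg.Agent.Nodes.LeviDec Cfsg.Agent.H967.Sph Cfsg.Agent.H705.Dl.PsRgd

variable {I W : Type*} {Y : Type u} [Fintype I] [DecidableEq I] [Group W] [Finite W] [Group Y] [Finite Y]
  {M : CoxeterMatrix I} {cs : CoxeterSystem M W} {A : I → I → ℤ} {h : IsCartan M A} {p : ℕ} {T : Subgroup Y}
  {n : I → Y} {X : (I → ℤ) → Subgroup Y} (R : RGD cs h p T n X) (hG : GG cs h T X = ⊤)

/-- the double coset `W_K w W_L` as a set -/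
def dcs (cs : CoxeterSystem M W) (K L : Set I) (w : W) : Set W := {x | ∃ a ∈ WJ cs K, ∃ b ∈ WJ cs L, x = a * w * b}

theorem dcs_mul (K L : Set I) {a b : W} (ha : a ∈ WJ cs K) (hb : b ∈ WJ cs L) (w : W) :
    dcs cs K L (a * w * b) = dcs cs K L w := by
  ext x
  constructor
  · rintro ⟨a', ha', b', hb', rfl⟩
    exact ⟨a' * a, mul_mem ha' ha, b * b', mul_mem hb hb', by group⟩
  · rintro ⟨a', ha', b', hb', rfl⟩
    exact ⟨a' * a⁻¹, mul_mem ha' (inv_mem ha), b⁻¹ * b', mul_mem (inv_mem hb) hb', by group⟩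

theorem mem_dcs (K L : Set I) (w : W) : w ∈ dcs cs K L w := ⟨1, one_mem _, 1, one_mem _, by group⟩

include R hG in
/-- **The inner products of the permutation characters.** -/
theorem inner_rgd [Fintype Y] [Fintype W] (K L : Set I) :
    classInner (fixedPointCharacter (PJ cs h T X K)) (fixedPointCharacter (PJ cs h T X L)) =
      classInner (fixedPointCharacter (WJ cs K)) (fixedPointCharacter (WJ cs L)) := by
  have hcell : ∀ w g, Cell R.nsys cs h X w g → wOf R hG g = w := fun w g hg =>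
    Cell.unique R (cell_wOf R hG g) hg
  have h1 := Cfsg.Agent.H139.DoubleCoset.inner_eq_card_range (PJ cs h T X K) (PJ cs h T X L)
    (fun g => dcs cs K L (wOf R hG g)) (by
      intro a ha g b hb
      obtain ⟨v, hv, h2⟩ := cell_left R ha (cell_wOf R hG g)
      obtain ⟨u, hu, h3⟩ := cell_right R hb h2
      rw [hcell _ _ h3, dcs_mul K L hv hu]) (by
      intro g g' e
      have h2 : wOf R hG g' ∈ dcs cs K L (wOf R hG g) := by
        have h3 := mem_dcs (cs := cs) K L (wOf R hG g')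
        have e' : dcs cs K L (wOf R hG g) = dcs cs K L (wOf R hG g') := e
        rwa [← e'] at h3
      obtain ⟨a, ha, b, hb, e2⟩ := h2
      obtain ⟨b₁, hb₁, k, hk, b₂, hb₂, e3⟩ := cell_wOf R hG g
      obtain ⟨b₁', hb₁', k', hk', b₂', hb₂', e3'⟩ := cell_wOf R hG g'
      obtain ⟨ka, hka⟩ := exists_rp cs R.nsys a
      obtain ⟨kb, hkb⟩ := exists_rp cs R.nsys b
      have h4 : Rp cs R.nsys (wOf R hG g') (ka * k * kb) := by
        rw [e2]
        exact (hka.mul hk).mul hkb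
      have ht := h4.unique hk'
      refine ⟨b₁' * ka * b₁⁻¹, mul_mem (mul_mem (B_le_PJ hb₁') (rp_mem_PJ R ha hka)) (inv_mem (B_le_PJ hb₁)),
        b₂⁻¹ * kb * ((ka * k * kb)⁻¹ * k') * b₂',
        mul_mem (mul_mem (mul_mem (inv_mem (B_le_PJ hb₂)) (rp_mem_PJ R hb hkb)) (B_le_PJ (RGD.T_le_B ht)))
          (B_le_PJ hb₂'), ?_⟩
      conv_lhs => rw [e3']
      conv_rhs => rw [e3]
      group)
  have h2 := Cfsg.Agent.H139.DoubleCoset.inner_eq_card_range (WJ cs K) (WJ cs L) (dcs cs K L)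
    (fun a ha g b hb => dcs_mul K L ha hb g) (fun g g' e => by
      have h3 := mem_dcs (cs := cs) K L g'
      rw [← e] at h3
      exact h3)
  have h3 : Set.range (fun g => dcs cs K L (wOf R hG g)) = Set.range (dcs cs K L) := by
    ext S
    constructor
    · rintro ⟨g, rfl⟩
      exact ⟨_, rfl⟩
    · rintro ⟨w, rfl⟩
      obtain ⟨k, hk⟩ := exists_rp cs R.nsys w
      exact ⟨k, by rw [← hcell w k (cell_of_rp hk)]⟩
  rw [h3] at h1
  rw [classInner_def, classInner_def]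
  simp only [fpc_conj]
  rw [h1, h2]

include R hG in
/-- **Transfer.** -/
theorem transfer [Fintype Y] [Fintype W] [Fintype (IrrCharacter Y)] [Fintype (IrrCharacter W)] {ι ι' : Type*}
    [Fintype ι] [Fintype ι'] (c : ι → ℂ) (K : ι → Set I) (c' : ι' → ℂ) (K' : ι' → Set I) :
    ∑ χ : IrrCharacter Y, (∑ i, c i * mn (PJ cs h T X (K i)) χ) * (∑ j, c' j * mn (PJ cs h T X (K' j)) χ) =
      ∑ ψ : IrrCharacter W, (∑ i, c i * mn (WJ cs (K i)) ψ) * (∑ j, c' j * mn (WJ cs (K' j)) ψ) := by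
  rw [sum_mn c (fun i => PJ cs h T X (K i)) c' (fun i => PJ cs h T X (K' i)),
    sum_mn c (fun i => WJ cs (K i)) c' (fun i => WJ cs (K' i))]
  refine Finset.sum_congr rfl fun i _ => Finset.sum_congr rfl fun j _ => ?_
  rw [inner_rgd R hG]

end Rgd

section Four

open CoxeterSystem Cfsg.Agent.ChevalleyStructure.CoxeterGeom Cfsg.Agent.Tits.Roots Cfsg.Agent.Tits.Core
  Cfsg.Agent.Tits.Exchange Cfsg.Agent.Nodes.Reps Cfsg.Agent.Nodes.BNOf Cfsg.Agent.Nodes.Bruhat
  Cfsg.Agent.Nodes.LeviDec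

variable {W : Type*} {Y : Type u} [Group W] [Finite W] [Group Y] [Finite Y]
  {cs : CoxeterSystem CoxeterMatrix.F₄ W} {A : Fin 4 → Fin 4 → ℤ} {h : IsCartan CoxeterMatrix.F₄ A} {p : ℕ}
  {T : Subgroup Y} {n : Fin 4 → Y} {X : (Fin 4 → ℤ) → Subgroup Y}

/-- the coefficients of `mm3` -/
def cc : Fin 6 → ℂ := ![2, -6, 6, -1, 3, -3]

/-- the sets of `mm3` -/
def KK (a b c : Fin 4) : Fin 6 → Set (Fin 4) := ![{c}, {a, c}, {a, b, c}, ∅, {a}, {a, b}]

theorem mm3_sum (f : Set (Fin 4) → ℂ) (a b c : Fin 4) : mm3 f a b c = ∑ i, cc i * f (KK a b c i) := by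
  simp only [mm3, cc, KK, Fin.sum_univ_succ, Fin.sum_univ_zero, Matrix.cons_val_zero, Matrix.cons_val_succ]
  ring

theorem mm3_map {R S : Type*} [CommRing R] [CommRing S] (φ : R →+* S) (f : Set (Fin 4) → R) (a b c : Fin 4) :
    φ (mm3 f a b c) = mm3 (fun K => φ (f K)) a b c := by
  simp only [mm3, map_sub, map_mul, map_add, map_ofNat]

theorem mm3_int {G : Type*} [Group G] [Finite G] {χ : G → ℂ} (hχ : IsIrrCharacter G χ) (P : Set (Fin 4) → Subgroup G)
    (a b c : Fin 4) : ∃ m : ℤ, (m : ℂ) = mm3 (fun K => mn (P K) χ) a b c := by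
  choose k hk using fun K => mn_nat hχ (P K)
  refine ⟨mm3 (fun K => (k K : ℤ)) a b c, ?_⟩
  have h1 := mm3_map (Int.castRingHom ℂ) (fun K => (k K : ℤ)) a b c
  rw [eq_intCast] at h1
  rw [h1]
  congr 1
  funext K
  rw [hk]
  simp

theorem mn_empty (ψ : W → ℂ) : mn (WJ cs (∅ : Set (Fin 4))) ψ = ψ 1 := by
  rw [mn_WJ' cs (K := ∅) [] (by simp) [[]] (by simp) (by simp) (by simp) (by simp) ψ]
  simp

/-- the sums over the characters of `W` -/
theorem sum_W [Fintype (IrrCharacter W)] (x y : W)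
    (hy : ∀ ψ : IrrCharacter W, conj ((ψ : W → ℂ) y) = (ψ : W → ℂ) y) :
    ∑ ψ : IrrCharacter W, (ψ : W → ℂ) x * (ψ : W → ℂ) y = (Nat.card {a : W // a * x * a⁻¹ = y} : ℂ) := by
  rw [Cfsg.Agent.S0848.column_orth]
  exact Finset.sum_congr rfl fun ψ _ => by rw [hy]

theorem conj_one (ψ : IrrCharacter W) : conj ((ψ : W → ℂ) 1) = (ψ : W → ℂ) 1 := by
  obtain ⟨k, -, hk⟩ := isIrr_apply_one ψ.2
  rw [hk, Complex.conj_natCast]

theorem conj_w1 (ψ : IrrCharacter W) : conj ((ψ : W → ℂ) (cs.wordProd w1)) = (ψ : W → ℂ) (cs.wordProd w1) := by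
  obtain ⟨m, hm⟩ := mm3_int ψ.2 (fun K => WJ cs K) 0 1 3
  rw [← mm3_w1 cs (isIrr_isClassFunction ψ.2), ← hm, map_intCast]

theorem conj_w2 (ψ : IrrCharacter W) : conj ((ψ : W → ℂ) (cs.wordProd w2)) = (ψ : W → ℂ) (cs.wordProd w2) := by
  obtain ⟨m, hm⟩ := mm3_int ψ.2 (fun K => WJ cs K) 3 2 0
  rw [← mm3_w2 cs (isIrr_isClassFunction ψ.2), ← hm, map_intCast]

/-- **The relations.** -/
theorem gram_F4 (R : RGD cs h p T n X) (hG : GG cs h T X = ⊤) [Fintype (IrrCharacter Y)] :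
    ∃ m m' d : IrrCharacter Y → ℤ,
      (∀ χ : IrrCharacter Y, (m χ : ℂ) = mm3 (fun K => mn (PJ cs h T X K) χ) 0 1 3) ∧
      (∀ χ : IrrCharacter Y, (m' χ : ℂ) = mm3 (fun K => mn (PJ cs h T X K) χ) 3 2 0) ∧
      (∀ χ : IrrCharacter Y, (d χ : ℂ) = mn (PJ cs h T X ∅) χ) ∧ (∀ χ, 0 ≤ d χ) ∧
      ∑ χ, m χ * m χ ≤ 12 ∧ ∑ χ, m' χ * m' χ ≤ 12 ∧ ∑ χ, m χ * m' χ = 0 ∧ ∑ χ, m χ * d χ = 0 ∧
      ∑ χ, m' χ * d χ = 0 := by
  classical
  have := Fintype.ofFinite Y
  have := Fintype.ofFinite W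
  have : Finite (IrrCharacter W) := finite_irr
  have := Fintype.ofFinite (IrrCharacter W)
  choose m hm using fun χ : IrrCharacter Y => mm3_int χ.2 (fun K => PJ cs h T X K) 0 1 3
  choose m' hm' using fun χ : IrrCharacter Y => mm3_int χ.2 (fun K => PJ cs h T X K) 3 2 0
  choose d hd using fun χ : IrrCharacter Y => mn_nat χ.2 (PJ cs h T X ∅)
  have t11 := transfer R hG cc (KK 0 1 3) cc (KK 0 1 3)
  have t22 := transfer R hG cc (KK 3 2 0) cc (KK 3 2 0)
  have t12 := transfer R hG cc (KK 0 1 3) cc (KK 3 2 0)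
  have t10 := transfer R hG cc (KK 0 1 3) (fun _ : Fin 1 => (1 : ℂ)) (fun _ => ∅)
  have t20 := transfer R hG cc (KK 3 2 0) (fun _ : Fin 1 => (1 : ℂ)) (fun _ => ∅)
  have y1 : ∀ χ : IrrCharacter Y, ∑ i, cc i * mn (PJ cs h T X (KK 0 1 3 i)) χ = (m χ : ℂ) := fun χ => by
    rw [hm, mm3_sum]
  have y2 : ∀ χ : IrrCharacter Y, ∑ i, cc i * mn (PJ cs h T X (KK 3 2 0 i)) χ = (m' χ : ℂ) := fun χ => by
    rw [hm', mm3_sum]
  have e1 : ∀ ψ : IrrCharacter W, ∑ i, cc i * mn (WJ cs (KK 0 1 3 i)) ψ = (ψ : W → ℂ) (cs.wordProd w1) := fun ψ => by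
    rw [← mm3_w1 cs (isIrr_isClassFunction ψ.2), mm3_sum]
  have e2 : ∀ ψ : IrrCharacter W, ∑ i, cc i * mn (WJ cs (KK 3 2 0 i)) ψ = (ψ : W → ℂ) (cs.wordProd w2) := fun ψ => by
    rw [← mm3_w2 cs (isIrr_isClassFunction ψ.2), mm3_sum]
  simp only [y1, y2, e1, e2, Finset.univ_unique, Finset.sum_singleton, one_mul, mn_empty, hd] at t11 t22 t12 t10 t20
  rw [sum_W _ _ conj_w1] at t11
  rw [sum_W _ _ conj_w2] at t22 t12
  rw [sum_W _ _ conj_one] at t10 t20
  rw [card_12] at t12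
  rw [card_10] at t10
  rw [card_20] at t20
  refine ⟨m, m', fun χ => (d χ : ℤ), hm, hm', fun χ => ?_, fun χ => Int.natCast_nonneg _, ?_, ?_, ?_, ?_, ?_⟩
  · rw [hd]; push_cast; rfl
  · have h1 : ∑ χ, m χ * m χ = (Nat.card {a : W // a * cs.wordProd w1 * a⁻¹ = cs.wordProd w1} : ℤ) := by
      exact_mod_cast t11
    rw [h1]
    exact_mod_cast card_cent1 cs
  · have h1 : ∑ χ, m' χ * m' χ = (Nat.card {a : W // a * cs.wordProd w2 * a⁻¹ = cs.wordProd w2} : ℤ) := by
      exact_mod_cast t22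
    rw [h1]
    exact_mod_cast card_cent2 cs
  · exact_mod_cast t12
  · exact_mod_cast t10
  · exact_mod_cast t20

end Four

end Cfsg.Agent.H589.FF
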