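import Cfsg.Agent.H589.FF.Sum
import Cfsg.Agent.H589.FF.Deg

/-!
# S4842, type `F₄`: the degrees of the mixed linear modules (helper589)
-/

set_option autoImplicit false
set_option linter.unusedSectionVars false

namespace Cfsg.Agent.H589.FF

open CoxeterSystem Cfsg.Agent.ChevalleyStructure.CoxeterGeom Cfsg.Agent.Tits.Roots Cfsg.Agent.Tits.Core
  Cfsg.Agent.Tits.Exchange Cfsg.Agent.Nodes.Reps Cfsg.Agent.Nodes.BNOf Cfsg.Agent.Nodes.Bruhat
  Cfsg.Agent.Nodes.LeviDec Cfsg.Agent.H967.Sph Cfsg.Agent.H985.VZ Module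

section

variable {I W : Type*} [Finite I] [Group W] {M : CoxeterMatrix I} (cs : CoxeterSystem M W) {q : I → ℕ}
  {E : Type*} [AddCommGroup E] [Module ℂ E] {N : I → Module.End ℂ E}

theorem aw_mul' (hN : HMod M q N) {i : I} {w : W} (hw : cs.length w < cs.length (w * cs.simple i)) :
    aw cs N (w * cs.simple i) = aw cs N w * N i := by
  obtain ⟨ω, h1, rfl⟩ := cs.exists_isReduced w
  have h2 : cs.IsReduced (ω ++ [i]) := by
    have h3 := cs.length_mul_simple (cs.wordProd ω) i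
    show cs.length (cs.wordProd (ω ++ [i])) = (ω ++ [i]).length
    rw [cs.wordProd_append, cs.wordProd_singleton, List.length_append, List.length_singleton, ← h1.eq]
    omega
  rw [← cs.wordProd_singleton, ← cs.wordProd_append, aw_eq cs hN h2, aw_eq cs hN h1, List.map_append, List.prod_append,
    List.map_singleton, List.prod_singleton]

/-- left and right steps -/
theorem aw_inv_mul (hN : HMod M q N) {i : I} {w : W} (hw : cs.length w < cs.length (cs.simple i * w)) :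
    aw cs N (cs.simple i * w)⁻¹ = aw cs N w⁻¹ * N i := by
  rw [mul_inv_rev, cs.inv_simple]
  refine aw_mul' cs hN ?_
  rw [cs.length_inv, ← cs.length_inv (w⁻¹ * cs.simple i), mul_inv_rev, inv_inv, cs.inv_simple]
  exact hw

theorem aw_inv_mul' (hN : HMod M q N) {i : I} {w : W} (hw : cs.length w < cs.length (w * cs.simple i)) :
    aw cs N (w * cs.simple i)⁻¹ = N i * aw cs N w⁻¹ := by
  rw [mul_inv_rev, cs.inv_simple]
  refine aw_mul cs hN ?_
  rw [cs.length_inv, ← cs.length_inv (cs.simple i * w⁻¹), mul_inv_rev, inv_inv, cs.inv_simple]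
  exact hw

end

section

variable {W Y : Type*} [Group W] [Finite W] [Group Y] [Finite Y]
  {cs : CoxeterSystem CoxeterMatrix.F₄ W} {A : Fin 4 → Fin 4 → ℤ} {h : IsCartan CoxeterMatrix.F₄ A} {p : ℕ}
  {T : Subgroup Y} {n : Fin 4 → Y} {X : (Fin 4 → ℤ) → Subgroup Y} {q : ℕ} (R : RGD cs h p T n X)
  {E : Type*} [AddCommGroup E] [Module ℂ E] [FiniteDimensional ℂ E] {N : Fin 4 → Module.End ℂ E}

/-- the order polynomial -/
theorem sum_len (cs : CoxeterSystem CoxeterMatrix.F₄ W) (z : ℂ) : ∑ᶠ w : W, z ^ cs.length w =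
    (1 + z) * (1 + z + z ^ 2) * ((1 + z) * (1 + z ^ 2) * (1 + z ^ 3)) *
      ((1 + z + z ^ 2) * (1 + z ^ 3) * (1 + z ^ 4) * (1 + z ^ 6)) := by
  rw [WF.macdonald cs (c := fun _ => z) (u := z) (v := z) rfl rfl rfl rfl (by rw [cs.length_one, pow_zero])
    fun i w hw => ?_]
  · ring
  · have h1 := cs.length_simple_mul w i
    rw [show cs.length (cs.simple i * w) = cs.length w + 1 by omega, pow_succ, mul_comm]

include R

/-- **The degree of a linear module.** -/
theorem deg_lin (hG : GG cs h T X = ⊤) (hq : ∀ i, Nat.card (X (sr i)) = q) (hN : HMod CoxeterMatrix.F₄ (fun _ => q) N)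
    [Nontrivial E] (hirr : ∀ S : Submodule ℂ E, (∀ i, ∀ v ∈ S, N i v ∈ S) → S = ⊥ ∨ S = ⊤)
    {c d : ℂ} (h0 : ∀ x, N 0 x = c • x) (h1 : ∀ x, N 1 x = c • x) (h2 : ∀ x, N 2 x = d • x) (h3 : ∀ x, N 3 x = d • x)
    {u v : ℂ} (hu : u = q * c ^ 2) (hv : v = q * d ^ 2) :
    (finrank ℂ (Fs cs h T n X (fun _ => q) N) : ℂ) *
      ((1 + u) * (1 + u + u ^ 2) * ((1 + v) * (1 + u * v) * (1 + u ^ 2 * v)) *
      ((1 + v + v ^ 2) * (1 + u * v ^ 2) * (1 + u ^ 2 * v ^ 2) * (1 + u ^ 3 * v ^ 3))) =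
      (1 + q) * (1 + q + q ^ 2) * ((1 + q) * (1 + q ^ 2) * (1 + q ^ 3)) *
      ((1 + q + q ^ 2) * (1 + q ^ 3) * (1 + q ^ 4) * (1 + q ^ 6)) := by
  obtain ⟨x, hx⟩ := exists_ne (0 : E)
  obtain ⟨η, hη⟩ : ∃ η : E →ₗ[ℂ] ℂ, η x ≠ 0 := by
    by_contra hne
    exact hx ((Module.forall_dual_apply_eq_zero_iff ℂ x).1 fun η => by_contra fun h5 => hne ⟨η, h5⟩)
  have hc : ∀ (i : Fin 4) (y : E), N i y = (![c, c, d, d] : Fin 4 → ℂ) i • y := by
    intro i y
    fin_cases i
    · exact h0 y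
    · exact h1 y
    · exact h2 y
    · exact h3 y
  have key := degree_formula R hG hq hN hirr η η x x
  have hm := WF.macdonald cs (c := fun i => (q : ℂ) * (![c, c, d, d] : Fin 4 → ℂ) i ^ 2) (u := u) (v := v)
    (ψ := fun w => (η x * η x)⁻¹ * ((q : ℂ) ^ cs.length w * (η (aw cs N w x) * η (aw cs N w⁻¹ x))))
    hu.symm hu.symm hv.symm hv.symm (by
      rw [inv_one, aw_one cs hN, cs.length_one, pow_zero, one_mul, Module.End.one_apply]
      exact inv_mul_cancel₀ (mul_ne_zero hη hη)) (fun i w hw => by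
      have e1 := cs.length_simple_mul w i
      rw [aw_mul cs hN hw, aw_inv_mul cs hN hw, show cs.length (cs.simple i * w) = cs.length w + 1 by omega,
        Module.End.mul_apply, Module.End.mul_apply, hc, hc, map_smul, map_smul, map_smul, smul_eq_mul, smul_eq_mul]
      ring)
  rw [← mul_finsum] at hm
  rw [sum_len] at key
  have h5 : η x * η x ≠ 0 := mul_ne_zero hη hη
  rw [inv_mul_eq_iff_eq_mul₀ h5] at hm
  rw [hm] at key
  apply mul_left_cancel₀ h5
  linear_combination key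

end

end Cfsg.Agent.H589.FF
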