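import Cfsg.Agent.H589.FF.Dc
import Cfsg.Agent.H589.FF.Lin
import Cfsg.Agent.H448.FF.Num
import Cfsg.Agent.H943.FF.Mods

/-!
# S4842, type `F₄`: the degrees of the four mixed modules (helper589)
-/

set_option autoImplicit false
set_option linter.unusedSectionVars false

namespace Cfsg.Agent.H589.FF

open CoxeterSystem Cfsg.Agent.ChevalleyStructure.CoxeterGeom Cfsg.Agent.Tits.Roots Cfsg.Agent.Tits.Core
  Cfsg.Agent.Tits.Exchange Cfsg.Agent.Nodes.Reps Cfsg.Agent.Nodes.BNOf Cfsg.Agent.Nodes.Bruhat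
  Cfsg.Agent.Nodes.LeviDec Cfsg.Agent.H967.Sph Cfsg.Agent.H985.VZ Module

/-- the polynomial of the linear ones -/
def polyL (q : ℤ) : ℤ := q ^ 4 * (1 + q ^ 2) ^ 2 * (q ^ 2 - q + 1) ^ 2 * (1 + q ^ 4) * (q ^ 4 - q ^ 2 + 1)

/-- the polynomial of the reflection ones -/
def polyR (q : ℤ) : ℤ := q ^ 4 * (1 + q) ^ 2 * (1 + q ^ 2) * (q ^ 2 - q + 1) ^ 2 * (1 + q ^ 4) * (q ^ 4 - q ^ 2 + 1)

theorem natne {q : ℕ} (hq : 2 ≤ q) {r : ℂ} (h : (q : ℂ) * r = 1) : (q : ℂ) ≠ r := by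
  intro e
  rw [← e, ← Nat.cast_mul, Nat.cast_eq_one] at h
  have := Nat.eq_one_of_mul_eq_one_left h
  omega

section

variable {W Y : Type*} [Group W] [Finite W] [Group Y] [Finite Y]
  {cs : CoxeterSystem CoxeterMatrix.F₄ W} {A : Fin 4 → Fin 4 → ℤ} {h : IsCartan CoxeterMatrix.F₄ A} {p : ℕ}
  {T : Subgroup Y} {n : Fin 4 → Y} {X : (Fin 4 → ℤ) → Subgroup Y} {q : ℕ} (R : RGD cs h p T n X)
  {N : Fin 4 → Module.End ℂ (Fin 4 → ℂ)} {r : ℂ}

include R

/-- **The module `(+,-)`.** -/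
theorem deg_A (hG : GG cs h T X = ⊤) (hq : ∀ i, Nat.card (X (sr i)) = q) (hq2 : 2 ≤ q) (hr : (q : ℂ) * r = 1)
    (hN : HMod CoxeterMatrix.F₄ (fun _ => q) N)
    (hirr : ∀ S : Submodule ℂ (Fin 4 → ℂ), (∀ i, ∀ v ∈ S, N i v ∈ S) → S = ⊥ ∨ S = ⊤)
    (h0 : ∀ x, N 0 x = ![-r * x 0 + r * x 1, x 1, x 2, x 3])
    (h1 : ∀ x, N 1 x = ![x 0, x 0 - r * x 1 - (1 + r ^ 2) * x 2, x 2, x 3])
    (h2 : ∀ x, N 2 x = ![-r * x 0, -r * x 1, x 1 + x 2 + r * x 3, -r * x 3])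
    (h3 : ∀ x, N 3 x = ![-r * x 0, -r * x 1, -r * x 2, x 2 + x 3]) :
    4 * (finrank ℂ (Fs cs h T n X (fun _ => q) N) : ℤ) = polyR q := by
  have key := degree_formula R hG hq hN hirr (H448.FF.etaA r) (H448.FF.xiA r) ![1, 0, 0, 0] ![0, 0, 0, 1]
  have hη : ∀ k ∈ ({0, 2, 3} : Set (Fin 4)), ∀ x, H448.FF.etaA r (N k x) = -r * H448.FF.etaA r x := by
    intro k hk x
    simp only [Set.mem_insert_iff, Set.mem_singleton_iff] at hk
    rcases hk with rfl | rfl | rfl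
    · exact H448.FF.etaA_0 h0 x
    · exact H448.FF.etaA_2 h2 x
    · exact H448.FF.etaA_3 h3 x
  have hu : ∀ k ∈ ({0, 2, 3} : Set (Fin 4)), N k ![1, 0, 0, 0] = (-r) • ![1, 0, 0, 0] := by
    intro k hk
    simp only [Set.mem_insert_iff, Set.mem_singleton_iff] at hk
    rcases hk with rfl | rfl | rfl
    · exact H448.FF.uA_0 h0
    · exact H448.FF.uA_2 h2
    · exact H448.FF.uA_3 h3
  have hξ : ∀ j ∈ ({0, 1, 3} : Set (Fin 4)), ∀ x, H448.FF.xiA r (N j x) = H448.FF.xiA r x := by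
    intro k hk x
    simp only [Set.mem_insert_iff, Set.mem_singleton_iff] at hk
    rcases hk with rfl | rfl | rfl
    · exact H448.FF.xiA_0 h0 x
    · exact H448.FF.xiA_1 h1 x
    · exact H448.FF.xiA_3 h3 x
  have hv : ∀ j ∈ ({0, 1, 3} : Set (Fin 4)), N j ![0, 0, 0, 1] = ![0, 0, 0, 1] := by
    intro k hk
    simp only [Set.mem_insert_iff, Set.mem_singleton_iff] at hk
    rcases hk with rfl | rfl | rfl
    · exact H448.FF.vA_0 h0
    · exact H448.FF.vA_1 h1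
    · exact H448.FF.vA_3 h3
  have hsum := WF.sum_dc013 cs (Φ := fun w => (q : ℂ) ^ cs.length w *
    (H448.FF.etaA r (aw cs N w ![0, 0, 0, 1]) * H448.FF.xiA r (aw cs N w⁻¹ ![1, 0, 0, 0]))) (natne hq2 hr)
    (fun k hk w hw => by
      have e1 := cs.length_simple_mul w k
      rw [aw_mul cs hN hw, aw_inv_mul cs hN hw, show cs.length (cs.simple k * w) = cs.length w + 1 by omega,
        Module.End.mul_apply, Module.End.mul_apply, hη k hk, hu k hk, map_smul, map_smul, smul_eq_mul]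
      linear_combination (r * (q : ℂ) ^ cs.length w *
        (H448.FF.etaA r (aw cs N w ![0, 0, 0, 1]) * H448.FF.xiA r (aw cs N w⁻¹ ![1, 0, 0, 0]))) * hr)
    (fun j hj w hw => by
      have e1 := cs.length_mul_simple w j
      rw [aw_mul' cs hN hw, aw_inv_mul' cs hN hw, show cs.length (w * cs.simple j) = cs.length w + 1 by omega,
        Module.End.mul_apply, Module.End.mul_apply, hξ j hj, hv j hj]
      ring)
  have hval : ∀ ω : List (Fin 4), WF.isRed ω = true → WF.isRed ω.reverse = true →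
      (q : ℂ) ^ cs.length (cs.wordProd ω) * (H448.FF.etaA r (aw cs N (cs.wordProd ω) ![0, 0, 0, 1]) *
        H448.FF.xiA r (aw cs N (cs.wordProd ω)⁻¹ ![1, 0, 0, 0])) =
      (q : ℂ) ^ ω.length * (H448.FF.etaA r ((ω.map N).prod ![0, 0, 0, 1]) *
        H448.FF.xiA r ((ω.reverse.map N).prod ![1, 0, 0, 0])) := by
    intro ω e1 e2
    have e3 := WF.isReduced_of cs e1
    rw [← cs.wordProd_reverse, aw_eq cs hN e3, aw_eq cs hN (WF.isReduced_of cs e2), e3.eq]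
  rw [hval _ (by decide +kernel) (by decide +kernel), hval _ (by decide +kernel) (by decide +kernel),
    hval _ (by decide +kernel) (by decide +kernel), hval _ (by decide +kernel) (by decide +kernel),
    hval _ (by decide +kernel) (by decide +kernel)] at hsum
  simp only [List.reverse_cons, List.reverse_nil, List.nil_append, List.cons_append, List.length_cons,
    List.length_nil] at hsum
  rw [H448.FF.etaNA0 h1 h2, H448.FF.xiNA0 h1 h2, H448.FF.etaNA1 h0 h1 h2 h3, H448.FF.xiNA1 h0 h1 h2 h3,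
    H448.FF.etaNA2 h0 h1 h2 h3, H448.FF.xiNA2 h0 h1 h2 h3, H448.FF.etaNA3 h0 h1 h2 h3, H448.FF.xiNA3 h0 h1 h2 h3,
    H448.FF.etaNA4 h0 h1 h2 h3, H448.FF.xiNA4 h0 h1 h2 h3] at hsum
  rw [hsum, sum_len] at key
  have h5 : (1 + (q : ℂ)) ≠ 0 := by
    rw [← Nat.cast_one, ← Nat.cast_add, Nat.cast_ne_zero]
    omega
  have h6 : (1 + (q : ℂ) + (q : ℂ) ^ 2) ≠ 0 := by
    rw [← Nat.cast_one, ← Nat.cast_pow, ← Nat.cast_add, ← Nat.cast_add, Nat.cast_ne_zero]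
    positivity
  have h7 : (1 + (q : ℂ) ^ 2) ≠ 0 := by
    rw [← Nat.cast_one, ← Nat.cast_pow, ← Nat.cast_add, Nat.cast_ne_zero]
    positivity
  have h8 := H448.FF.degree_eq hr h5 h6 h7 (D := (finrank ℂ (Fs cs h T n X (fun _ => q) N) : ℂ)) (H448.FF.total_A hr)
    (by
      rw [H448.FF.etaA_vec, H448.FF.xiA_vec] at key
      linear_combination key)
  have h9 : (4 * (finrank ℂ (Fs cs h T n X (fun _ => q) N) : ℤ) : ℤ) = ((polyR q : ℤ) : ℂ) := by
    rw [polyR]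
    push_cast
    linear_combination h8
  exact_mod_cast h9


/-- **The module `(-,+)`.** -/
theorem deg_B (hG : GG cs h T X = ⊤) (hq : ∀ i, Nat.card (X (sr i)) = q) (hq2 : 2 ≤ q) (hr : (q : ℂ) * r = 1)
    (hN : HMod CoxeterMatrix.F₄ (fun _ => q) N)
    (hirr : ∀ S : Submodule ℂ (Fin 4 → ℂ), (∀ i, ∀ v ∈ S, N i v ∈ S) → S = ⊥ ∨ S = ⊤)
    (h0 : ∀ x, N 0 x = ![x 0 + r * x 1, -r * x 1, -r * x 2, -r * x 3])
    (h1 : ∀ x, N 1 x = ![-r * x 0, x 0 + x 1 - (1 + r ^ 2) * x 2, -r * x 2, -r * x 3])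
    (h2 : ∀ x, N 2 x = ![x 0, x 1, x 1 - r * x 2 + r * x 3, x 3])
    (h3 : ∀ x, N 3 x = ![x 0, x 1, x 2, x 2 - r * x 3]) :
    4 * (finrank ℂ (Fs cs h T n X (fun _ => q) N) : ℤ) = polyR q := by
  have key := degree_formula R hG hq hN hirr (H448.FF.etaB r) (H448.FF.xiB r) ![0, 0, 0, 1] ![1, 0, 0, 0]
  have hη : ∀ k ∈ ({0, 1, 3} : Set (Fin 4)), ∀ x, H448.FF.etaB r (N k x) = -r * H448.FF.etaB r x := by
    intro k hk x
    simp only [Set.mem_insert_iff, Set.mem_singleton_iff] at hk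
    rcases hk with rfl | rfl | rfl
    · exact H448.FF.etaB_0 h0 x
    · exact H448.FF.etaB_1 h1 x
    · exact H448.FF.etaB_3 h3 x
  have hu : ∀ k ∈ ({0, 1, 3} : Set (Fin 4)), N k ![0, 0, 0, 1] = (-r) • ![0, 0, 0, 1] := by
    intro k hk
    simp only [Set.mem_insert_iff, Set.mem_singleton_iff] at hk
    rcases hk with rfl | rfl | rfl
    · exact H448.FF.uB_0 h0
    · exact H448.FF.uB_1 h1
    · exact H448.FF.uB_3 h3
  have hξ : ∀ j ∈ ({0, 2, 3} : Set (Fin 4)), ∀ x, H448.FF.xiB r (N j x) = H448.FF.xiB r x := by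
    intro k hk x
    simp only [Set.mem_insert_iff, Set.mem_singleton_iff] at hk
    rcases hk with rfl | rfl | rfl
    · exact H448.FF.xiB_0 h0 x
    · exact H448.FF.xiB_2 h2 x
    · exact H448.FF.xiB_3 h3 x
  have hv : ∀ j ∈ ({0, 2, 3} : Set (Fin 4)), N j ![1, 0, 0, 0] = ![1, 0, 0, 0] := by
    intro k hk
    simp only [Set.mem_insert_iff, Set.mem_singleton_iff] at hk
    rcases hk with rfl | rfl | rfl
    · exact H448.FF.vB_0 h0
    · exact H448.FF.vB_2 h2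
    · exact H448.FF.vB_3 h3
  have hsum := WF.sum_dc023 cs (Φ := fun w => (q : ℂ) ^ cs.length w *
    (H448.FF.etaB r (aw cs N w ![1, 0, 0, 0]) * H448.FF.xiB r (aw cs N w⁻¹ ![0, 0, 0, 1]))) (natne hq2 hr)
    (fun k hk w hw => by
      have e1 := cs.length_simple_mul w k
      rw [aw_mul cs hN hw, aw_inv_mul cs hN hw, show cs.length (cs.simple k * w) = cs.length w + 1 by omega,
        Module.End.mul_apply, Module.End.mul_apply, hη k hk, hu k hk, map_smul, map_smul, smul_eq_mul]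
      linear_combination (r * (q : ℂ) ^ cs.length w *
        (H448.FF.etaB r (aw cs N w ![1, 0, 0, 0]) * H448.FF.xiB r (aw cs N w⁻¹ ![0, 0, 0, 1]))) * hr)
    (fun j hj w hw => by
      have e1 := cs.length_mul_simple w j
      rw [aw_mul' cs hN hw, aw_inv_mul' cs hN hw, show cs.length (w * cs.simple j) = cs.length w + 1 by omega,
        Module.End.mul_apply, Module.End.mul_apply, hξ j hj, hv j hj]
      ring)
  have hval : ∀ ω : List (Fin 4), WF.isRed ω = true → WF.isRed ω.reverse = true →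
      (q : ℂ) ^ cs.length (cs.wordProd ω) * (H448.FF.etaB r (aw cs N (cs.wordProd ω) ![1, 0, 0, 0]) *
        H448.FF.xiB r (aw cs N (cs.wordProd ω)⁻¹ ![0, 0, 0, 1])) =
      (q : ℂ) ^ ω.length * (H448.FF.etaB r ((ω.map N).prod ![1, 0, 0, 0]) *
        H448.FF.xiB r ((ω.reverse.map N).prod ![0, 0, 0, 1])) := by
    intro ω e1 e2
    have e3 := WF.isReduced_of cs e1
    rw [← cs.wordProd_reverse, aw_eq cs hN e3, aw_eq cs hN (WF.isReduced_of cs e2), e3.eq]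
  rw [hval _ (by decide +kernel) (by decide +kernel), hval _ (by decide +kernel) (by decide +kernel),
    hval _ (by decide +kernel) (by decide +kernel), hval _ (by decide +kernel) (by decide +kernel),
    hval _ (by decide +kernel) (by decide +kernel)] at hsum
  simp only [List.reverse_cons, List.reverse_nil, List.nil_append, List.cons_append, List.length_cons,
    List.length_nil] at hsum
  rw [H448.FF.etaNB0 h1 h2, H448.FF.xiNB0 h1 h2, H448.FF.etaNB1 h0 h1 h2 h3, H448.FF.xiNB1 h0 h1 h2 h3,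
    H448.FF.etaNB2 h0 h1 h2 h3, H448.FF.xiNB2 h0 h1 h2 h3, H448.FF.etaNB3 h0 h1 h2 h3, H448.FF.xiNB3 h0 h1 h2 h3,
    H448.FF.etaNB4 h0 h1 h2 h3, H448.FF.xiNB4 h0 h1 h2 h3] at hsum
  rw [hsum, sum_len] at key
  have h5 : (1 + (q : ℂ)) ≠ 0 := by
    rw [← Nat.cast_one, ← Nat.cast_add, Nat.cast_ne_zero]
    omega
  have h6 : (1 + (q : ℂ) + (q : ℂ) ^ 2) ≠ 0 := by
    rw [← Nat.cast_one, ← Nat.cast_pow, ← Nat.cast_add, ← Nat.cast_add, Nat.cast_ne_zero]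
    positivity
  have h7 : (1 + (q : ℂ) ^ 2) ≠ 0 := by
    rw [← Nat.cast_one, ← Nat.cast_pow, ← Nat.cast_add, Nat.cast_ne_zero]
    positivity
  have h8 := H448.FF.degree_eq hr h5 h6 h7 (D := (finrank ℂ (Fs cs h T n X (fun _ => q) N) : ℂ)) (H448.FF.total_B hr)
    (by
      rw [H448.FF.etaB_vec, H448.FF.xiB_vec] at key
      linear_combination key)
  have h9 : (4 * (finrank ℂ (Fs cs h T n X (fun _ => q) N) : ℤ) : ℤ) = ((polyR q : ℤ) : ℂ) := by
    rw [polyR]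
    push_cast
    linear_combination h8
  exact_mod_cast h9

end

section

variable {W Y : Type*} [Group W] [Finite W] [Group Y] [Finite Y]
  {cs : CoxeterSystem CoxeterMatrix.F₄ W} {A : Fin 4 → Fin 4 → ℤ} {h : IsCartan CoxeterMatrix.F₄ A} {p : ℕ}
  {T : Subgroup Y} {n : Fin 4 → Y} {X : (Fin 4 → ℤ) → Subgroup Y} {q : ℕ} (R : RGD cs h p T n X)
  {E : Type*} [AddCommGroup E] [Module ℂ E] [FiniteDimensional ℂ E] {N : Fin 4 → Module.End ℂ E} {r : ℂ}

/-- the common end of the linear modules -/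
theorem end_lin {q r D P : ℂ} (h : q * r = 1) (h1 : 1 + q ≠ 0) (h2 : 1 + q + q ^ 2 ≠ 0)
    (hP : P = 8 * ((1 + q) ^ 2 * (1 + q + q ^ 2) * ((1 + r) ^ 2 * (1 + r + r ^ 2))))
    (hD : D * P = (1 + q) * (1 + q + q ^ 2) * ((1 + q) * (1 + q ^ 2) * (1 + q ^ 3)) *
      ((1 + q + q ^ 2) * (1 + q ^ 3) * (1 + q ^ 4) * (1 + q ^ 6))) :
    8 * D = q ^ 4 * (1 + q ^ 2) ^ 2 * (q ^ 2 - q + 1) ^ 2 * (1 + q ^ 4) * (q ^ 4 - q ^ 2 + 1) := by
  have e1 : 1 + r = r * (1 + q) := by linear_combination (-1) * h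
  have e2 : 1 + r + r ^ 2 = r ^ 2 * (1 + q + q ^ 2) := by linear_combination (-(q * r + 1) - r) * h
  have h5 : q ^ 4 * r ^ 4 = 1 := by rw [← mul_pow, h, one_pow]
  rw [hP, e2, e1] at hD
  have h4 : (1 + q) ^ 4 * (1 + q + q ^ 2) ^ 2 ≠ 0 := mul_ne_zero (pow_ne_zero _ h1) (pow_ne_zero _ h2)
  refine mul_left_cancel₀ h4 ?_
  linear_combination q ^ 4 * hD - 8 * D * (1 + q) ^ 4 * (1 + q + q ^ 2) ^ 2 * h5

include R

/-- **The linear module `(+,-)`.** -/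
theorem deg_LA (hG : GG cs h T X = ⊤) (hq : ∀ i, Nat.card (X (sr i)) = q) (hq2 : 2 ≤ q) (hr : (q : ℂ) * r = 1)
    (hN : HMod CoxeterMatrix.F₄ (fun _ => q) N) [Nontrivial E]
    (hirr : ∀ S : Submodule ℂ E, (∀ i, ∀ v ∈ S, N i v ∈ S) → S = ⊥ ∨ S = ⊤)
    (h0 : ∀ x, N 0 x = (1 : ℂ) • x) (h1 : ∀ x, N 1 x = (1 : ℂ) • x) (h2 : ∀ x, N 2 x = (-r) • x)
    (h3 : ∀ x, N 3 x = (-r) • x) :
    8 * (finrank ℂ (Fs cs h T n X (fun _ => q) N) : ℤ) = polyL q := by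
  have key := deg_lin R hG hq hN hirr h0 h1 h2 h3 (u := q) (v := r) (by ring) (by linear_combination (-r) * hr)
  have h5 : (1 + (q : ℂ)) ≠ 0 := by
    rw [← Nat.cast_one, ← Nat.cast_add, Nat.cast_ne_zero]
    omega
  have h6 : (1 + (q : ℂ) + (q : ℂ) ^ 2) ≠ 0 := by
    rw [← Nat.cast_one, ← Nat.cast_pow, ← Nat.cast_add, ← Nat.cast_add, Nat.cast_ne_zero]
    positivity
  have e1 : (q : ℂ) ^ 2 * r = q := by linear_combination (q : ℂ) * hr
  have e2 : (q : ℂ) * r ^ 2 = r := by linear_combination r * hr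
  have e3 : (q : ℂ) ^ 2 * r ^ 2 = 1 := by rw [← mul_pow, hr, one_pow]
  have e4 : (q : ℂ) ^ 3 * r ^ 3 = 1 := by rw [← mul_pow, hr, one_pow]
  rw [hr, e1, e2, e3, e4] at key
  have h8 := end_lin hr h5 h6 (by ring) key
  have h9 : (8 * (finrank ℂ (Fs cs h T n X (fun _ => q) N) : ℤ) : ℤ) = ((polyL q : ℤ) : ℂ) := by
    rw [polyL]
    push_cast
    linear_combination h8
  exact_mod_cast h9

/-- **The linear module `(-,+)`.** -/
theorem deg_LB (hG : GG cs h T X = ⊤) (hq : ∀ i, Nat.card (X (sr i)) = q) (hq2 : 2 ≤ q) (hr : (q : ℂ) * r = 1)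
    (hN : HMod CoxeterMatrix.F₄ (fun _ => q) N) [Nontrivial E]
    (hirr : ∀ S : Submodule ℂ E, (∀ i, ∀ v ∈ S, N i v ∈ S) → S = ⊥ ∨ S = ⊤)
    (h0 : ∀ x, N 0 x = (-r) • x) (h1 : ∀ x, N 1 x = (-r) • x) (h2 : ∀ x, N 2 x = (1 : ℂ) • x)
    (h3 : ∀ x, N 3 x = (1 : ℂ) • x) :
    8 * (finrank ℂ (Fs cs h T n X (fun _ => q) N) : ℤ) = polyL q := by
  have key := deg_lin R hG hq hN hirr h0 h1 h2 h3 (u := r) (v := q) (by linear_combination (-r) * hr) (by ring)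
  have h5 : (1 + (q : ℂ)) ≠ 0 := by
    rw [← Nat.cast_one, ← Nat.cast_add, Nat.cast_ne_zero]
    omega
  have h6 : (1 + (q : ℂ) + (q : ℂ) ^ 2) ≠ 0 := by
    rw [← Nat.cast_one, ← Nat.cast_pow, ← Nat.cast_add, ← Nat.cast_add, Nat.cast_ne_zero]
    positivity
  have e0 : r * (q : ℂ) = 1 := by linear_combination hr
  have e1 : r ^ 2 * (q : ℂ) = r := by linear_combination r * hr
  have e2 : r * (q : ℂ) ^ 2 = q := by linear_combination (q : ℂ) * hr
  have e3 : r ^ 2 * (q : ℂ) ^ 2 = 1 := by rw [← mul_pow, e0, one_pow]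
  have e4 : r ^ 3 * (q : ℂ) ^ 3 = 1 := by rw [← mul_pow, e0, one_pow]
  rw [e0, e1, e2, e3, e4] at key
  have h8 := end_lin hr h5 h6 (by ring) key
  have h9 : (8 * (finrank ℂ (Fs cs h T n X (fun _ => q) N) : ℤ) : ℤ) = ((polyL q : ℤ) : ℂ) := by
    rw [polyL]
    push_cast
    linear_combination h8
  exact_mod_cast h9

end

end Cfsg.Agent.H589.FF
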