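import Cfsg.Agent.H589.FF.Gram
import Cfsg.Agent.H589.FF.Arith
import Cfsg.Agent.H589.FF.Ref

/-!
# S4842, type `F₄` with equal parameters: the main theorem of the module layer (helper589)

An irreducible representation with `V^B ≠ 0` whose two elliptic values do not vanish and with `k_0 + k_3 = dim V^B`
is one of the four mixed ones; its degree is known.
-/

set_option autoImplicit false
set_option linter.unusedSectionVars false

namespace Cfsg.Agent.H589.FF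

open CoxeterSystem Cfsg.Agent.ChevalleyStructure.CoxeterGeom Cfsg.Agent.Tits.Roots Cfsg.Agent.Tits.Core
  Cfsg.Agent.Tits.Exchange Cfsg.Agent.Nodes.Reps Cfsg.Agent.Nodes.BNOf Cfsg.Agent.Nodes.Bruhat
  Cfsg.Agent.Nodes.LeviDec Cfsg.Agent.H985.VZ Cfsg.Agent.Characters.Core WF Module Cfsg.Agent.H943.FF

universe u

variable {W : Type*} {Y : Type u} [Group W] [Finite W] [Group Y] [Finite Y]
  {cs : CoxeterSystem CoxeterMatrix.F₄ W} {A : Fin 4 → Fin 4 → ℤ} {h : IsCartan CoxeterMatrix.F₄ A} {p : ℕ}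
  {T : Subgroup Y} {n : Fin 4 → Y} {X : (Fin 4 → ℤ) → Subgroup Y} {q : ℕ} (R : RGD cs h p T n X)

include R

theorem PJ_emp : PJ cs h T X (∅ : Set (Fin 4)) = RGD.B cs h T X := by
  refine le_antisymm (fun g hg => ?_) B_le_PJ
  obtain ⟨w, hw, hc⟩ := (mem_PJ_iff_cell R).1 hg
  unfold WJ at hw
  rw [Set.image_empty, Subgroup.closure_empty, Subgroup.mem_bot] at hw
  rw [hw] at hc
  exact hc.mem_of_one

/-- the character of a module -/
theorem of_MdN (hG : GG cs h T X = ⊤) (hq : ∀ i, Nat.card (X (sr i)) = q) {m : ℕ}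
    {N : Fin 4 → Module.End ℂ (Fin m → ℂ)} {a0 a1 a2 a3 a4 a5 a6 a7 : ℤ} (hM : MdN q m N a0 a1 a2 a3 a4 a5 a6 a7) :
    ∃ χ : IrrCharacter Y,
      mm3 (fun K => mn (PJ cs h T X K) χ) 0 1 3 = ((2 * (a2 - 3 * a5 + 3 * a6) - (a0 - 3 * a1 + 3 * a3) : ℤ) : ℂ) ∧
      mm3 (fun K => mn (PJ cs h T X K) χ) 3 2 0 = ((2 * (a1 - 3 * a5 + 3 * a7) - (a0 - 3 * a2 + 3 * a4) : ℤ) : ℂ) ∧
      mn (PJ cs h T X ∅) χ = a0 ∧ mn (PJ cs h T X {0}) χ = a1 ∧ mn (PJ cs h T X {3}) χ = a2 ∧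
      (χ : Y → ℂ) 1 = finrank ℂ (Fs cs h T n X (fun _ => q) N) := by
  obtain ⟨hN, hm, hirr, h0, h1, h2, h3, h4, h5, h6, h7⟩ := hM
  have : Nonempty (Fin m) := ⟨⟨0, hm⟩⟩
  have : Nontrivial (Fin m → ℂ) := inferInstance
  have hq' : ∀ i, Nat.card (X (sr i)) = (fun _ : Fin 4 => q) i := hq
  have hir := irred R hG hq' hN hirr
  have hk : ∀ K : Set (Fin 4), mn (PJ cs h T X K) (sig cs h T n X (fun _ => q) N).character = ((kd N K : ℤ) : ℂ) := by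
    intro K
    rw [mn_eq, finrank_fx R hG hq' hN, kd, Int.cast_natCast]
  have hn : kd N ∅ = m := kd_id fun v i hi => absurd hi (Set.notMem_empty i)
  have s1 : ({3, 0} : Set (Fin 4)) = {0, 3} := Set.pair_comm 3 0
  have s2 : ({3, 2} : Set (Fin 4)) = {2, 3} := Set.pair_comm 3 2
  have s3 : ({3, 2, 0} : Set (Fin 4)) = {0, 2, 3} := by
    ext x
    simp only [Set.mem_insert_iff, Set.mem_singleton_iff]
    tauto
  refine ⟨⟨_, isIrrCharacter_of_rep _ hir⟩, ?_, ?_, ?_, ?_, ?_, ?_⟩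
  · simp only [mm3, hk, hn, h0, h1, h2, h3, h5, h6]
    push_cast
    ring
  · simp only [mm3, s1, s2, s3, hk, hn, h0, h1, h2, h4, h5, h7]
    push_cast
    ring
  · rw [hk, hn, h0]
  · rw [hk, h1]
  · rw [hk, h2]
  · exact Representation.char_one _

/-- the twelve characters -/
theorem exists_chars (hG : GG cs h T X = ⊤) (hq : ∀ i, Nat.card (X (sr i)) = q) (hq2 : 2 ≤ q) (k : Fin 12) :
    ∃ χ : IrrCharacter Y, mm3 (fun K => mn (PJ cs h T X K) χ) 0 1 3 = ((mv k : ℤ) : ℂ) ∧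
      mm3 (fun K => mn (PJ cs h T X K) χ) 3 2 0 = ((mv' k : ℤ) : ℂ) ∧
      mn (PJ cs h T X ∅) χ = ((dv k : ℤ) : ℂ) ∧ mn (PJ cs h T X {0}) χ = ((kl k : ℤ) : ℂ) ∧
      mn (PJ cs h T X {3}) χ = ((ks k : ℤ) : ℂ) ∧ ∃ D : ℕ, (χ : Y → ℂ) 1 = D ∧
        (k = 1 ∨ k = 2 → 8 * (D : ℤ) = polyL q) ∧ (k = 5 ∨ k = 6 → 4 * (D : ℤ) = polyR q) := by
  have hr := q_rr hq2
  have key : ∀ a0 a1 a2 a3 a4 a5 a6 a7 : ℤ, ∀ (m : ℕ) (N : Fin 4 → Module.End ℂ (Fin m → ℂ)),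
      MdN q m N a0 a1 a2 a3 a4 a5 a6 a7 → a0 = dv k →
      2 * (a2 - 3 * a5 + 3 * a6) - (a0 - 3 * a1 + 3 * a3) = mv k →
      2 * (a1 - 3 * a5 + 3 * a7) - (a0 - 3 * a2 + 3 * a4) = mv' k → a1 = kl k → a2 = ks k →
      (k = 1 ∨ k = 2 → 8 * (finrank ℂ (Fs cs h T n X (fun _ => q) N) : ℤ) = polyL q) →
      (k = 5 ∨ k = 6 → 4 * (finrank ℂ (Fs cs h T n X (fun _ => q) N) : ℤ) = polyR q) →
      ∃ χ : IrrCharacter Y, mm3 (fun K => mn (PJ cs h T X K) χ) 0 1 3 = ((mv k : ℤ) : ℂ) ∧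
      mm3 (fun K => mn (PJ cs h T X K) χ) 3 2 0 = ((mv' k : ℤ) : ℂ) ∧
      mn (PJ cs h T X ∅) χ = ((dv k : ℤ) : ℂ) ∧ mn (PJ cs h T X {0}) χ = ((kl k : ℤ) : ℂ) ∧
      mn (PJ cs h T X {3}) χ = ((ks k : ℤ) : ℂ) ∧ ∃ D : ℕ, (χ : Y → ℂ) 1 = D ∧
        (k = 1 ∨ k = 2 → 8 * (D : ℤ) = polyL q) ∧ (k = 5 ∨ k = 6 → 4 * (D : ℤ) = polyR q) := by
    intro a0 a1 a2 a3 a4 a5 a6 a7 m N hM g0 g1 g2 g3 g4 g5 g6
    obtain ⟨χ, e1, e2, e3, e4, e5, e6⟩ := of_MdN R hG hq hM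
    refine ⟨χ, ?_, ?_, ?_, ?_, ?_, _, e6, g5, g6⟩
    · rw [e1, g1]
    · rw [e2, g2]
    · rw [e3, g0]
    · rw [e4, g3]
    · rw [e5, g4]
  fin_cases k
  · exact key _ _ _ _ _ _ _ _ _ _ (md1' hq2) rfl rfl rfl rfl rfl (fun e => absurd e (by decide)) (fun e => absurd e (by decide))
  · refine key _ _ _ _ _ _ _ _ _ _ (md2' hq2) rfl rfl rfl rfl rfl (fun _ => ?_) (fun e => absurd e (by decide))
    obtain ⟨hN, -, hirr, -⟩ := md2' hq2
    exact deg_LA R hG hq hq2 hr hN hirr (fun _ => rfl) (fun _ => rfl) (fun _ => rfl) (fun _ => rfl)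
  · refine key _ _ _ _ _ _ _ _ _ _ (md3' hq2) rfl rfl rfl rfl rfl (fun _ => ?_) (fun e => absurd e (by decide))
    obtain ⟨hN, -, hirr, -⟩ := md3' hq2
    exact deg_LB R hG hq hq2 hr hN hirr (fun _ => rfl) (fun _ => rfl) (fun _ => rfl) (fun _ => rfl)
  · exact key _ _ _ _ _ _ _ _ _ _ (md4' hq2) rfl rfl rfl rfl rfl (fun e => absurd e (by decide)) (fun e => absurd e (by decide))
  · exact key _ _ _ _ _ _ _ _ _ _ (md_pp' hq2) rfl rfl rfl rfl rfl (fun e => absurd e (by decide)) (fun e => absurd e (by decide))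
  · refine key _ _ _ _ _ _ _ _ _ _ (md_pm' hq2) rfl rfl rfl rfl rfl (fun e => absurd e (by decide)) (fun _ => ?_)
    obtain ⟨hN, -, hirr, -⟩ := md_pm' hq2
    exact deg_A R hG hq hq2 hr hN hirr (fun x => (pm_apply _ x).1) (fun x => (pm_apply _ x).2.1)
      (fun x => (pm_apply _ x).2.2.1) (fun x => (pm_apply _ x).2.2.2)
  · refine key _ _ _ _ _ _ _ _ _ _ (md_mp' hq2) rfl rfl rfl rfl rfl (fun e => absurd e (by decide)) (fun _ => ?_)
    obtain ⟨hN, -, hirr, -⟩ := md_mp' hq2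
    exact deg_B R hG hq hq2 hr hN hirr (fun x => (mp_apply _ x).1) (fun x => (mp_apply _ x).2.1)
      (fun x => (mp_apply _ x).2.2.1) (fun x => (mp_apply _ x).2.2.2)
  · exact key _ _ _ _ _ _ _ _ _ _ (md_mm' hq2) rfl rfl rfl rfl rfl (fun e => absurd e (by decide)) (fun e => absurd e (by decide))
  · exact key _ _ _ _ _ _ _ _ _ _ (md_l1' hq2) rfl rfl rfl rfl rfl (fun e => absurd e (by decide)) (fun e => absurd e (by decide))
  · exact key _ _ _ _ _ _ _ _ _ _ (md_l2' hq2) rfl rfl rfl rfl rfl (fun e => absurd e (by decide)) (fun e => absurd e (by decide))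
  · exact key _ _ _ _ _ _ _ _ _ _ (md_s1' hq2) rfl rfl rfl rfl rfl (fun e => absurd e (by decide)) (fun e => absurd e (by decide))
  · exact key _ _ _ _ _ _ _ _ _ _ (md_s2' hq2) rfl rfl rfl rfl rfl (fun e => absurd e (by decide)) (fun e => absurd e (by decide))

/-- **The main theorem of the module layer.** -/
theorem main (hG : GG cs h T X = ⊤) (hq : ∀ i, Nat.card (X (sr i)) = q) (hq2 : 2 ≤ q)
    {V : Type*} [AddCommGroup V] [Module ℂ V] [FiniteDimensional ℂ V] {ρ : Representation ℂ Y V}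
    (hρ : ρ.IsIrreducible) (h0 : fx ρ (RGD.B cs h T X) ≠ ⊥)
    (hm : mm3 (fun K => (finrank ℂ (fx ρ (PJ cs h T X K)) : ℤ)) 0 1 3 ≠ 0)
    (hm' : mm3 (fun K => (finrank ℂ (fx ρ (PJ cs h T X K)) : ℤ)) 3 2 0 ≠ 0)
    (hdet : finrank ℂ (fx ρ (PJ cs h T X {0})) + finrank ℂ (fx ρ (PJ cs h T X {3})) =
      finrank ℂ (fx ρ (RGD.B cs h T X))) :
    8 * (finrank ℂ V : ℤ) = (q : ℤ) ^ 4 * (1 + (q : ℤ) ^ 2) ^ 2 * ((q : ℤ) ^ 2 - q + 1) ^ 2 * (1 + (q : ℤ) ^ 4) *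
        ((q : ℤ) ^ 4 - (q : ℤ) ^ 2 + 1) ∨
      4 * (finrank ℂ V : ℤ) = (q : ℤ) ^ 4 * (1 + (q : ℤ)) ^ 2 * (1 + (q : ℤ) ^ 2) * ((q : ℤ) ^ 2 - q + 1) ^ 2 *
        (1 + (q : ℤ) ^ 4) * ((q : ℤ) ^ 4 - (q : ℤ) ^ 2 + 1) := by
  classical
  have : Finite (IrrCharacter Y) := finite_irr
  have := Fintype.ofFinite (IrrCharacter Y)
  obtain ⟨m, m', d, hm1, hm2, hd1, hd0, g1, g2, g3, g4, g5⟩ := gram_F4 R hG
  choose χ c1 c2 c3 c4 c5 D c6 c7 c8 using exists_chars R hG hq hq2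
  have e1 : ∀ k, m (χ k) = mv k := fun k => by exact_mod_cast (hm1 (χ k)).trans (c1 k)
  have e2 : ∀ k, m' (χ k) = mv' k := fun k => by exact_mod_cast (hm2 (χ k)).trans (c2 k)
  have e3 : ∀ k, d (χ k) = dv k := fun k => by exact_mod_cast (hd1 (χ k)).trans (c3 k)
  have hinj : Function.Injective χ := by
    intro k k' e
    have f1 : mv k = mv k' := by rw [← e1, ← e1, e]
    have f2 : mv' k = mv' k' := by rw [← e2, ← e2, e]
    have f3 : dv k = dv k' := by rw [← e3, ← e3, e]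
    have key : ∀ k k' : Fin 12, mv k = mv k' → mv' k = mv' k' → dv k = dv k' → k = k' := by decide
    exact key k k' f1 f2 f3
  have hsum : ∀ f : IrrCharacter Y → ℤ, ∑ i ∈ Finset.univ.image χ, f i = ∑ k, f (χ k) := fun f =>
    Finset.sum_image fun a _ b _ e => hinj e
  set ψ : IrrCharacter Y := ⟨ρ.character, isIrrCharacter_of_rep ρ hρ⟩ with hψ
  have hmn : ∀ K, mn (PJ cs h T X K) ψ = (((finrank ℂ (fx ρ (PJ cs h T X K)) : ℤ)) : ℂ) := by
    intro K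
    rw [hψ, mn_eq]
    push_cast
    rfl
  have hmψ : m ψ = mm3 (fun K => (finrank ℂ (fx ρ (PJ cs h T X K)) : ℤ)) 0 1 3 := by
    have f1 := hm1 ψ
    have f2 := mm3_map (Int.castRingHom ℂ) (fun K => (finrank ℂ (fx ρ (PJ cs h T X K)) : ℤ)) 0 1 3
    simp only [hmn] at f1
    rw [eq_intCast] at f2
    simp only [eq_intCast] at f2
    rw [← f2] at f1
    exact_mod_cast f1
  have hmψ' : m' ψ = mm3 (fun K => (finrank ℂ (fx ρ (PJ cs h T X K)) : ℤ)) 3 2 0 := by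
    have f1 := hm2 ψ
    have f2 := mm3_map (Int.castRingHom ℂ) (fun K => (finrank ℂ (fx ρ (PJ cs h T X K)) : ℤ)) 3 2 0
    simp only [hmn] at f1
    rw [eq_intCast] at f2
    simp only [eq_intCast] at f2
    rw [← f2] at f1
    exact_mod_cast f1
  have hdψ : d ψ = finrank ℂ (fx ρ (RGD.B cs h T X)) := by
    have f1 := hd1 ψ
    rw [hmn, PJ_emp R] at f1
    exact_mod_cast f1
  have hdpos : 0 < d ψ := by
    rw [hdψ]
    have : Nontrivial (fx ρ (RGD.B cs h T X)) := Submodule.nontrivial_iff_ne_bot.2 h0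
    exact_mod_cast Module.finrank_pos
  have hmem := arith m m' d hd0 g1 g2 g3 g4 g5 (Finset.univ.image χ)
    (by rw [hsum]; simp only [e1]; decide) (by rw [hsum]; simp only [e2]; decide)
    (by rw [hsum]; simp only [e1, e2]; decide) (by rw [hsum]; simp only [e1, e3]; decide)
    (by rw [hsum]; simp only [e2, e3]; decide) ψ (by rw [hmψ]; exact hm) (by rw [hmψ']; exact hm') hdpos
  obtain ⟨k, -, hk⟩ := Finset.mem_image.1 hmem
  have f1 : mv k ≠ 0 := by rw [← e1, hk, hmψ]; exact hm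
  have f2 : mv' k ≠ 0 := by rw [← e2, hk, hmψ']; exact hm'
  have f3 : kl k + ks k = dv k := by
    have a1 := c4 k
    have a2 := c5 k
    rw [hk, hmn] at a1 a2
    have a3 : (finrank ℂ (fx ρ (PJ cs h T X {0})) : ℤ) = kl k := by exact_mod_cast a1
    have a4 : (finrank ℂ (fx ρ (PJ cs h T X {3})) : ℤ) = ks k := by exact_mod_cast a2
    rw [← a3, ← a4, ← e3, hk, hdψ]
    exact_mod_cast hdet
  have key : ∀ k : Fin 12, mv k ≠ 0 → mv' k ≠ 0 → kl k + ks k = dv k → (k = 1 ∨ k = 2) ∨ (k = 5 ∨ k = 6) := by decide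
  have hD : (finrank ℂ V : ℤ) = D k := by
    have a1 := c6 k
    rw [hk, hψ] at a1
    have a2 : (finrank ℂ V : ℂ) = D k := by
      rw [← a1]
      exact (Representation.char_one ρ).symm
    exact_mod_cast a2
  rw [hD]
  rcases key k f1 f2 f3 with hh | hh
  · exact Or.inl (c7 k hh)
  · exact Or.inr (c8 k hh)

end Cfsg.Agent.H589.FF
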